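import Groth.Agent.Gaga.H9.Cauchy
import Mathlib.Order.Filter.Germ.Basic

/-!
The ring of germs at `a ∈ ℂⁿ` of functions complex differentiable near `a` is isomorphic to the ring
of convergent power series; in particular it is Noetherian.
-/

set_option autoImplicit false

open Metric Filter Topology
open scoped ENNReal
open MvPowerSeries
open Groth.Agent.Gaga.H9.Wt Groth.Agent.Gaga.H9.Div Groth.Agent.Gaga.H9.Conv
open Groth.Agent.Gaga.H9.Eval Groth.Agent.Gaga.H9.Geom Groth.Agent.Gaga.H9.Cauchy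

namespace Groth.Agent.Gaga.H9.Germ

variable {n : ℕ}

lemma rad_eq (s : ℕ) (i : Fin n) : rad s i = ((Nat.nth Nat.Prime i : ℝ)⁻¹) ^ s := by
  unfold rad; rw [inv_pow]

lemma tendsto_rad (i : Fin n) : Tendsto (fun s => rad s i) atTop (𝓝 0) := by
  simp_rw [rad_eq]
  have h1 : (1 : ℝ) < Nat.nth Nat.Prime i := by exact_mod_cast (prime_nth i).one_lt
  exact tendsto_pow_atTop_nhds_zero_of_lt_one (by positivity) (inv_lt_one_of_one_lt₀ h1)

/-- for every radius `r` the polydiscs of large exponent lie in the ball of radius `r` -/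
lemma exists_rad_le {r : ℝ} (hr : 0 < r) : ∃ s₀, ∀ s, s₀ ≤ s → ∀ i : Fin n, rad s i ≤ r := by
  have h : ∀ i : Fin n, ∀ᶠ s in atTop, rad s i ≤ r := fun i =>
    (tendsto_rad i).eventually (eventually_le_nhds hr)
  exact eventually_atTop.mp (eventually_all.mpr h)

/-- a power series with geometric bounds is convergent -/
lemma nrm_ne_top_of_bound {f : MvPowerSeries (Fin n) ℂ} {r M : ℝ} (hr : 0 < r)
    (hf : ∀ m, ‖coeff m f‖ ≤ M * ∏ i : Fin n, r⁻¹ ^ m i) :
    ∃ s₀, ∀ s, s₀ ≤ s → nrm s f ≠ ⊤ := by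
  obtain ⟨s₀, hs₀⟩ := exists_rad_le (n := n) (half_pos hr)
  refine ⟨s₀, fun s hs => nrm_ne_top_of_summable ?_⟩
  have hsum : Summable fun m : Fin n →₀ ℕ => M * ∏ i : Fin n, (2⁻¹ : ℝ) ^ m i :=
    (summable_prod_pow (fun _ : Fin n => (2⁻¹ : ℝ)) (fun _ => by norm_num) (fun _ => by norm_num)).mul_left M
  have hM : 0 ≤ M := by
    have := (norm_nonneg _).trans (hf 0)
    simpa using this
  refine Summable.of_nonneg_of_le (fun m => mul_nonneg (norm_nonneg _)
    (Finset.prod_nonneg fun i _ => pow_nonneg (rad_pos s i).le _)) (fun m => ?_) hsum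
  calc ‖coeff m f‖ * ∏ i, rad s i ^ m i ≤ (M * ∏ i : Fin n, r⁻¹ ^ m i) * ∏ i, rad s i ^ m i :=
        mul_le_mul_of_nonneg_right (hf m)
          (Finset.prod_nonneg fun i _ => pow_nonneg (rad_pos s i).le _)
    _ = M * ∏ i : Fin n, (r⁻¹ * rad s i) ^ m i := by
        rw [mul_assoc, ← Finset.prod_mul_distrib]; simp_rw [mul_pow]
    _ ≤ M * ∏ i : Fin n, (2⁻¹ : ℝ) ^ m i := by
        refine mul_le_mul_of_nonneg_left (Finset.prod_le_prod (fun i _ => ?_) fun i _ => ?_) hM
        · have := rad_pos s i; positivity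
        · refine pow_le_pow_left₀ (by have := rad_pos s i; positivity) ?_ _
          calc r⁻¹ * rad s i ≤ r⁻¹ * (r / 2) :=
                mul_le_mul_of_nonneg_left (hs₀ s hs i) (by positivity)
            _ = 2⁻¹ := by field_simp

/-- evaluation is bounded by the norm -/
lemma norm_ev_le {s : ℕ} {f : MvPowerSeries (Fin n) ℂ} (h : nrm s f ≠ ⊤) {z : Fin n → ℂ}
    (hz : z ∈ pd s) : ‖ev f z‖ ≤ (nrm s f).toReal := by
  have h1 := summable_ev h hz
  have h2 := summable_of_nrm h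
  calc ‖ev f z‖ ≤ ∑' m, ‖coeff m f * mon m z‖ := norm_tsum_le_tsum_norm h1
    _ ≤ ∑' m, ‖coeff m f‖ * ∏ i, rad s i ^ m i := by
        refine h1.tsum_le_tsum (fun m => ?_) h2
        rw [norm_mul]
        exact mul_le_mul_of_nonneg_left (norm_mon_le hz m) (norm_nonneg _)
    _ = (nrm s f).toReal := by
        unfold nrm
        rw [ENNReal.tsum_toReal_eq]
        · refine tsum_congr fun m => ?_
          rw [ENNReal.toReal_mul, toReal_wt, toReal_enorm]
        · intro m; exact ENNReal.mul_ne_top enorm_ne_top (wt_ne_top _ _)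

lemma nrm_smul (s : ℕ) (c : ℂ) (f : MvPowerSeries (Fin n) ℂ) : nrm s (c • f) = ‖c‖ₑ * nrm s f := by
  unfold nrm
  rw [← ENNReal.tsum_mul_left]
  refine tsum_congr fun m => ?_
  rw [map_smul, smul_eq_mul, enorm_mul, mul_assoc]

lemma exists_lead {f : MvPowerSeries (Fin n) ℂ} (h0 : f ≠ 0) :
    ∃ α, coeff α f ≠ 0 ∧ ∀ b, N b < N α → coeff b f = 0 := by
  classical
  have hex : ∃ M, ∃ m, N m = M ∧ coeff m f ≠ 0 := by
    by_contra hcon
    push Not at hcon
    exact h0 (MvPowerSeries.ext fun m => by simpa using hcon _ m rfl)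
  obtain ⟨m, hm, hm'⟩ := Nat.find_spec hex
  refine ⟨m, hm', fun b hb => ?_⟩
  by_contra hne
  exact Nat.find_min hex (hm ▸ hb) ⟨b, rfl, hne⟩

/-- A nonzero convergent power series does not vanish at the points `(p_i^{-s})_i`, `s ≫ 0`. -/
theorem exists_ev_ne_zero {f : MvPowerSeries (Fin n) ℂ} (hf : f ∈ conv n) (h0 : f ≠ 0) :
    ∃ s₀, ∀ s, s₀ ≤ s → ev f (fun i => (rad s i : ℂ)) ≠ 0 := by
  obtain ⟨α, hα, hlt⟩ := exists_lead h0
  set c := coeff α f with hc
  obtain ⟨t, ht⟩ := hf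
  set h : MvPowerSeries (Fin n) ℂ := c⁻¹ • f - monomial α 1 with hh
  have hcf : nrm t (c⁻¹ • f) ≠ ⊤ := by
    rw [nrm_smul]; exact ENNReal.mul_ne_top enorm_ne_top ht
  have hht : nrm t h ≠ ⊤ := by
    refine ne_top_of_le_ne_top ?_ (le_trans (le_of_eq ?_) (nrm_add t (c⁻¹ • f) (-(monomial α 1))))
    · rw [nrm_neg, nrm_monomial]
      exact ENNReal.add_ne_top.mpr ⟨hcf, ENNReal.mul_ne_top enorm_ne_top (wt_ne_top _ _)⟩
    · rw [hh, sub_eq_add_neg]
  have hN : ∀ b, N b ≤ N α → coeff b h = 0 := by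
    intro b hb
    rw [hh, map_sub, map_smul]
    rcases eq_or_lt_of_le hb with hb | hb
    · rw [N_injective hb, coeff_monomial_same, ← hc, smul_eq_mul, inv_mul_cancel₀ hα, sub_self]
    · rw [hlt b hb, smul_zero, coeff_monomial_ne, sub_self]
      rintro rfl
      exact lt_irrefl _ hb
  obtain ⟨s₀, hs₀⟩ := exists_small α h hN ⟨t, hht⟩
  refine ⟨max s₀ t, fun s hs hzero => ?_⟩
  have hst : t ≤ s := (le_max_right _ _).trans hs
  have hs' := hs₀ s ((le_max_left _ _).trans hs)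
  have hz : (fun i : Fin n => (rad s i : ℂ)) ∈ pd s := by
    intro i
    rw [Complex.norm_real, Real.norm_of_nonneg (rad_pos s i).le]
  have hhs : nrm s h ≠ ⊤ := ne_top_of_le_ne_top hht (nrm_antitone hst _)
  have hfs : nrm s f ≠ ⊤ := ne_top_of_le_ne_top ht (nrm_antitone hst _)
  have hms : nrm s (monomial α (1 : ℂ) : MvPowerSeries (Fin n) ℂ) ≠ ⊤ := by
    rw [nrm_monomial]; exact ENNReal.mul_ne_top enorm_ne_top (wt_ne_top _ _)
  have e1 : c⁻¹ • f = monomial α 1 + h := by rw [hh]; ring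
  have e2 : ev (c⁻¹ • f) (fun i => (rad s i : ℂ)) = 0 := by
    have : ev (c⁻¹ • f) (fun i => (rad s i : ℂ)) = c⁻¹ * ev f (fun i => (rad s i : ℂ)) := by
      unfold ev
      rw [← tsum_mul_left]
      refine tsum_congr fun m => ?_
      rw [map_smul, smul_eq_mul, mul_assoc]
    rw [this, hzero, mul_zero]
  rw [e1, ev_add hms hhs hz, ev_monomial, one_mul] at e2
  have e3 : ‖mon α (fun i : Fin n => (rad s i : ℂ))‖ = (wt s α).toReal := by
    rw [toReal_wt]; unfold mon
    rw [norm_prod]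
    refine Finset.prod_congr rfl fun i _ => ?_
    rw [norm_pow, Complex.norm_real, Real.norm_of_nonneg (rad_pos s i).le]
  have e4 : ‖ev h (fun i : Fin n => (rad s i : ℂ))‖ ≤ 2⁻¹ * (wt s α).toReal := by
    refine (norm_ev_le hhs hz).trans ?_
    have := ENNReal.toReal_mono (ENNReal.mul_ne_top (by simp) (wt_ne_top s α)) hs'
    rwa [ENNReal.toReal_mul, ENNReal.toReal_inv, ENNReal.toReal_ofNat] at this
  have e5 : ‖mon α (fun i : Fin n => (rad s i : ℂ))‖ = ‖ev h (fun i : Fin n => (rad s i : ℂ))‖ := by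
    rw [eq_neg_of_add_eq_zero_left e2, norm_neg]
  have e6 : 0 < (wt s α).toReal := ENNReal.toReal_pos (wt_ne_zero _ _) (wt_ne_top _ _)
  rw [e3] at e5
  rw [← e5] at e4
  linarith

/-- **Identity theorem** for convergent power series. -/
theorem eq_zero_of_eventually {f : MvPowerSeries (Fin n) ℂ} (hf : f ∈ conv n)
    (h : ∀ᶠ z in 𝓝 (0 : Fin n → ℂ), ev f z = 0) : f = 0 := by
  by_contra h0
  obtain ⟨s₀, hs₀⟩ := exists_ev_ne_zero hf h0
  have ht : Tendsto (fun s => (fun i : Fin n => (rad s i : ℂ))) atTop (𝓝 0) := by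
    rw [tendsto_pi_nhds]
    intro i
    have := (Complex.continuous_ofReal.tendsto 0).comp (tendsto_rad i)
    simpa [Function.comp_def] using this
  obtain ⟨s, hs1, hs2⟩ := ((ht.eventually h).and (eventually_ge_atTop s₀)).exists
  exact hs₀ s hs2 hs1

/-- Power series expansion at `0` of a function differentiable near `0`. -/
theorem exists_conv_zero {G : (Fin n → ℂ) → ℂ} (hG : ∀ᶠ z in 𝓝 (0 : Fin n → ℂ), DifferentiableAt ℂ G z) :
    ∃ f : conv n, ∀ᶠ z in 𝓝 (0 : Fin n → ℂ), G z = ev f z := by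
  obtain ⟨V, hV, hVo, h0⟩ := _root_.eventually_nhds_iff.mp hG
  obtain ⟨r, hr, hball⟩ := Metric.nhds_basis_closedBall.mem_iff.mp (hVo.mem_nhds h0)
  have hd : DifferentiableOn ℂ G V := fun z hz => (hV z hz).differentiableWithinAt
  obtain ⟨M, hM⟩ : ∃ M, ∀ z ∈ closedBall (0 : Fin n → ℂ) r, ‖G z‖ ≤ M :=
    (isCompact_closedBall _ _).exists_bound_of_continuousOn (hd.continuousOn.mono hball)
  obtain ⟨s₀, hs₀⟩ := nrm_ne_top_of_bound hr (norm_coeff_cf_le hr hM)
  refine ⟨⟨cf r G, s₀, hs₀ s₀ le_rfl⟩, ?_⟩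
  filter_upwards [ball_mem_nhds (0 : Fin n → ℂ) hr] with z hz
  exact (hasSum_cf hr hVo hd hball hz).tsum_eq.symm

lemma tendsto_sub (a : Fin n → ℂ) : Tendsto (fun z : Fin n → ℂ => z - a) (𝓝 a) (𝓝 0) := by
  have : Continuous fun z : Fin n → ℂ => z - a := by fun_prop
  simpa using this.tendsto a

lemma tendsto_add (a : Fin n → ℂ) : Tendsto (fun z : Fin n → ℂ => z + a) (𝓝 0) (𝓝 a) := by
  have : Continuous fun z : Fin n → ℂ => z + a := by fun_prop
  simpa using this.tendsto 0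

/-- Power series expansion at `a` of a function differentiable near `a`. -/
theorem exists_conv {a : Fin n → ℂ} {G : (Fin n → ℂ) → ℂ}
    (hG : ∀ᶠ z in 𝓝 a, DifferentiableAt ℂ G z) :
    ∃ f : conv n, ∀ᶠ z in 𝓝 a, G z = ev f (z - a) := by
  have h1 : ∀ᶠ z in 𝓝 (0 : Fin n → ℂ), DifferentiableAt ℂ (fun w => G (w + a)) z := by
    filter_upwards [(tendsto_add a).eventually hG] with z hz
    exact hz.comp z (by fun_prop)
  obtain ⟨f, hf⟩ := exists_conv_zero h1
  refine ⟨f, ?_⟩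
  filter_upwards [(tendsto_sub a).eventually hf] with z hz
  rw [← hz, sub_add_cancel]

lemma eventually_differentiableAt_ev {f : MvPowerSeries (Fin n) ℂ} (hf : f ∈ conv n)
    (a : Fin n → ℂ) : ∀ᶠ z in 𝓝 a, DifferentiableAt ℂ (fun z => ev f (z - a)) z := by
  obtain ⟨s, hs⟩ := hf
  filter_upwards [(tendsto_sub a).eventually (hd_mem_nhds s)] with z hz
  have h1 : DifferentiableAt ℂ (fun w : Fin n → ℂ => w - a) z := by fun_prop
  exact DifferentiableAt.comp (g := ev f) z (hasFDerivAt_ev hs hz).differentiableAt h1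

/-- The ring of germs at `a` of functions differentiable near `a`. -/
def hol (a : Fin n → ℂ) : Subring (Filter.Germ (𝓝 a) ℂ) where
  carrier := {φ | ∃ G : (Fin n → ℂ) → ℂ, (∀ᶠ z in 𝓝 a, DifferentiableAt ℂ G z) ∧
    φ = (G : Filter.Germ (𝓝 a) ℂ)}
  mul_mem' := by
    rintro _ _ ⟨G, hG, rfl⟩ ⟨H, hH, rfl⟩
    exact ⟨G * H, by filter_upwards [hG, hH] with z h1 h2 using h1.mul h2, rfl⟩
  one_mem' := ⟨1, by filter_upwards with z using differentiableAt_const _, rfl⟩
  add_mem' := by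
    rintro _ _ ⟨G, hG, rfl⟩ ⟨H, hH, rfl⟩
    exact ⟨G + H, by filter_upwards [hG, hH] with z h1 h2 using h1.add h2, rfl⟩
  zero_mem' := ⟨0, by filter_upwards with z using differentiableAt_const _, rfl⟩
  neg_mem' := by
    rintro _ ⟨G, hG, rfl⟩
    exact ⟨-G, by filter_upwards [hG] with z h1 using h1.neg, rfl⟩

lemma mem_hol {a : Fin n → ℂ} {φ : Filter.Germ (𝓝 a) ℂ} : φ ∈ hol a ↔
    ∃ G : (Fin n → ℂ) → ℂ, (∀ᶠ z in 𝓝 a, DifferentiableAt ℂ G z) ∧ φ = (G : Filter.Germ (𝓝 a) ℂ) :=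
  Iff.rfl

/-- Convergent power series as germs of functions at `a`. -/
noncomputable def toGerm (a : Fin n → ℂ) : conv n →+* Filter.Germ (𝓝 a) ℂ where
  toFun f := ((fun z => ev (f : MvPowerSeries (Fin n) ℂ) (z - a) : (Fin n → ℂ) → ℂ) :
    Filter.Germ (𝓝 a) ℂ)
  map_one' := by
    refine Filter.Germ.coe_eq.mpr (Eventually.of_forall fun z => ?_)
    exact ev_one _
  map_zero' := by
    refine Filter.Germ.coe_eq.mpr (Eventually.of_forall fun z => ?_)
    exact ev_zero _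
  map_mul' f g := by
    obtain ⟨s, hs⟩ := f.2
    obtain ⟨t, ht⟩ := g.2
    refine Filter.Germ.coe_eq.mpr ?_
    filter_upwards [(tendsto_sub a).eventually (pd_mem_nhds (max s t))] with z hz
    exact ev_mul (ne_top_of_le_ne_top hs (nrm_antitone (le_max_left _ _) _))
      (ne_top_of_le_ne_top ht (nrm_antitone (le_max_right _ _) _)) hz
  map_add' f g := by
    obtain ⟨s, hs⟩ := f.2
    obtain ⟨t, ht⟩ := g.2
    refine Filter.Germ.coe_eq.mpr ?_
    filter_upwards [(tendsto_sub a).eventually (pd_mem_nhds (max s t))] with z hz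
    exact ev_add (ne_top_of_le_ne_top hs (nrm_antitone (le_max_left _ _) _))
      (ne_top_of_le_ne_top ht (nrm_antitone (le_max_right _ _) _)) hz

lemma toGerm_apply (a : Fin n → ℂ) (f : conv n) : toGerm a f =
    ((fun z => ev (f : MvPowerSeries (Fin n) ℂ) (z - a) : (Fin n → ℂ) → ℂ) :
      Filter.Germ (𝓝 a) ℂ) := rfl

theorem toGerm_injective (a : Fin n → ℂ) : Function.Injective (toGerm a) := by
  rw [injective_iff_map_eq_zero]
  intro f hf
  rw [toGerm_apply] at hf
  have h1 : ∀ᶠ z in 𝓝 a, ev (f : MvPowerSeries (Fin n) ℂ) (z - a) = 0 := Filter.Germ.coe_eq.mp hf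
  have h2 : ∀ᶠ z in 𝓝 (0 : Fin n → ℂ), ev (f : MvPowerSeries (Fin n) ℂ) z = 0 := by
    filter_upwards [(tendsto_add a).eventually h1] with z hz
    rwa [add_sub_cancel_right] at hz
  exact Subtype.ext (eq_zero_of_eventually f.2 h2)

theorem range_toGerm (a : Fin n → ℂ) : (toGerm a).range = hol a := by
  ext φ
  constructor
  · rintro ⟨f, rfl⟩
    exact ⟨_, eventually_differentiableAt_ev f.2 a, rfl⟩
  · rintro ⟨G, hG, rfl⟩
    obtain ⟨f, hf⟩ := exists_conv hG
    refine ⟨f, ?_⟩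
    rw [toGerm_apply]
    refine Filter.Germ.coe_eq.mpr ?_
    filter_upwards [hf] with z hz using hz.symm

/-- The ring of holomorphic germs is isomorphic to the ring of convergent power series. -/
noncomputable def equiv (a : Fin n → ℂ) : conv n ≃+* hol a :=
  (RingEquiv.ofBijective (toGerm a).rangeRestrict
    ⟨fun _ _ h => toGerm_injective a (congrArg Subtype.val h), (toGerm a).rangeRestrict_surjective⟩).trans
    (RingEquiv.subringCongr (range_toGerm a))

lemma equiv_apply (a : Fin n → ℂ) (f : conv n) : ((equiv a f : hol a) : Filter.Germ (𝓝 a) ℂ) =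
    ((fun z => ev (f : MvPowerSeries (Fin n) ℂ) (z - a) : (Fin n → ℂ) → ℂ) :
      Filter.Germ (𝓝 a) ℂ) := rfl

/-- **The ring of holomorphic germs at a point of `ℂⁿ` is Noetherian.** -/
theorem isNoetherianRing_hol (a : Fin n → ℂ) : IsNoetherianRing (hol a) :=
  have := isNoetherianRing_conv (n := n)
  isNoetherianRing_of_ringEquiv _ (equiv a)

end Groth.Agent.Gaga.H9.Germ
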