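import Groth.Agent.Gaga.H9.Geom
import Mathlib.MeasureTheory.Integral.TorusIntegral
import Mathlib.Analysis.Complex.CauchyIntegral
import Mathlib.MeasureTheory.Integral.DominatedConvergence

/-!
Cauchy's integral formula on polydiscs and power series expansion of functions of several complex
variables.
-/

set_option autoImplicit false

open MeasureTheory Complex Metric
open scoped Real
open MvPowerSeries
open Groth.Agent.Gaga.H9.Wt Groth.Agent.Gaga.H9.Conv Groth.Agent.Gaga.H9.Eval Groth.Agent.Gaga.H9.Geom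

namespace Groth.Agent.Gaga.H9.Cauchy

lemma norm_torusMap {n : ℕ} {r : ℝ} (hr : 0 < r) (θ : Fin n → ℝ) (i : Fin n) :
    ‖torusMap (0 : Fin n → ℂ) (fun _ => r) θ i‖ = r := by
  simp [torusMap, abs_of_pos hr]

lemma torusMap_mem {n : ℕ} {r : ℝ} (hr : 0 < r) (θ : Fin n → ℝ) :
    torusMap (0 : Fin n → ℂ) (fun _ => r) θ ∈ closedBall (0 : Fin n → ℂ) r := by
  rw [mem_closedBall_zero_iff]
  exact (pi_norm_le_iff_of_nonneg hr.le).mpr fun i => (norm_torusMap hr θ i).le

lemma continuous_torusMap {n : ℕ} (c : Fin n → ℂ) (R : Fin n → ℝ) : Continuous (torusMap c R) := by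
  unfold torusMap
  fun_prop

lemma norm_lt_of_mem_ball {n : ℕ} {r : ℝ} {z : Fin n → ℂ} (hz : z ∈ ball (0 : Fin n → ℂ) r)
    (i : Fin n) : ‖z i‖ < r :=
  (norm_le_pi_norm z i).trans_lt (mem_ball_zero_iff.mp hz)

lemma torusIntegrable {n : ℕ} {r : ℝ} {f : (Fin n → ℂ) → ℂ}
    (hf : Continuous fun θ => f (torusMap (0 : Fin n → ℂ) (fun _ => r) θ)) :
    TorusIntegrable f (0 : Fin n → ℂ) (fun _ => r) :=
  hf.continuousOn.integrableOn_compact isCompact_Icc

lemma continuous_G {n : ℕ} {r : ℝ} (hr : 0 < r) {G : (Fin n → ℂ) → ℂ} {V : Set (Fin n → ℂ)}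
    (hG : DifferentiableOn ℂ G V) (hVr : closedBall 0 r ⊆ V) :
    Continuous fun θ => G (torusMap (0 : Fin n → ℂ) (fun _ => r) θ) :=
  hG.continuousOn.comp_continuous (continuous_torusMap _ _) fun θ => hVr (torusMap_mem hr θ)

lemma sub_ne_zero' {n : ℕ} {r : ℝ} (hr : 0 < r) {z : Fin n → ℂ} (hz : z ∈ ball (0 : Fin n → ℂ) r)
    (θ : Fin n → ℝ) (i : Fin n) : torusMap (0 : Fin n → ℂ) (fun _ => r) θ i - z i ≠ 0 := by
  intro h
  have h1 := norm_torusMap hr θ i
  rw [sub_eq_zero.mp h] at h1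
  exact (norm_lt_of_mem_ball hz i).ne h1

lemma continuous_kernel {n : ℕ} {r : ℝ} (hr : 0 < r) {z : Fin n → ℂ}
    (hz : z ∈ ball (0 : Fin n → ℂ) r) :
    Continuous fun θ => (∏ i, (torusMap (0 : Fin n → ℂ) (fun _ => r) θ i - z i))⁻¹ := by
  refine Continuous.inv₀ ?_ fun θ => Finset.prod_ne_zero_iff.mpr fun i _ => sub_ne_zero' hr hz θ i
  refine continuous_finsetProd _ fun i _ => ?_
  have h1 : Continuous fun θ : Fin n → ℝ => torusMap (0 : Fin n → ℂ) (fun _ => r) θ i := by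
    unfold torusMap; fun_prop
  exact h1.sub continuous_const

/-- **Cauchy's integral formula on a polydisc.** -/
theorem cauchy (n : ℕ) {r : ℝ} (hr : 0 < r) (G : (Fin n → ℂ) → ℂ) (V : Set (Fin n → ℂ))
    (hV : IsOpen V) (hG : DifferentiableOn ℂ G V) (hVr : closedBall 0 r ⊆ V) (z : Fin n → ℂ)
    (hz : z ∈ ball (0 : Fin n → ℂ) r) :
    (∯ ζ in T(0, fun _ => r), (∏ i, (ζ i - z i))⁻¹ * G ζ) = (2 * π * I) ^ n * G z := by
  induction n with
  | zero =>
    rw [torusIntegral_dim0]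
    simp only [Finset.univ_eq_empty, Finset.prod_empty, inv_one, one_mul, pow_zero]
    exact congrArg G (Subsingleton.elim _ _)
  | succ n ih =>
    rw [torusIntegral_succ (torusIntegrable ((continuous_kernel hr hz).mul (continuous_G hr hG hVr)))]
    change (∮ x in C(0, r), ∯ y in T(0, fun _ => r),
      (∏ i, ((Fin.cons x y : Fin (n + 1) → ℂ) i - z i))⁻¹ * G (Fin.cons x y)) = _
    have hz' : Fin.tail z ∈ ball (0 : Fin n → ℂ) r := by
      rw [mem_ball_zero_iff, pi_norm_lt_iff hr]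
      exact fun i => norm_lt_of_mem_ball hz _
    have hcons : ∀ (x : ℂ) (y : Fin n → ℂ), ‖x‖ ≤ r → y ∈ closedBall (0 : Fin n → ℂ) r →
        (Fin.cons x y : Fin (n + 1) → ℂ) ∈ closedBall (0 : Fin (n + 1) → ℂ) r := by
      intro x y hx hy
      rw [mem_closedBall_zero_iff] at hy ⊢
      rw [pi_norm_le_iff_of_nonneg hr.le] at hy ⊢
      intro i
      refine Fin.cases ?_ (fun j => ?_) i
      · simpa using hx
      · simpa using hy j
    have hinner : ∀ x : ℂ, ‖x‖ = r → (∯ y in T(0, fun _ => r),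
        (∏ i, ((Fin.cons x y : Fin (n + 1) → ℂ) i - z i))⁻¹ * G (Fin.cons x y)) =
        (2 * π * I) ^ n * ((x - z 0)⁻¹ * G (Fin.cons x (Fin.tail z))) := by
      intro x hx
      have hc : Continuous fun y : Fin n → ℂ => (Fin.cons x y : Fin (n + 1) → ℂ) :=
        Continuous.finCons continuous_const continuous_id
      have hd : Differentiable ℂ fun y : Fin n → ℂ => (Fin.cons x y : Fin (n + 1) → ℂ) := by
        rw [differentiable_pi]
        intro i
        refine Fin.cases ?_ (fun j => ?_) i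
        · simp
        · simpa using differentiable_apply j
      have h1 := ih (fun y => G (Fin.cons x y)) ((fun y => (Fin.cons x y : Fin (n + 1) → ℂ)) ⁻¹' V)
        (hV.preimage hc) (hG.comp hd.differentiableOn fun y hy => hy)
        (fun y hy => hVr (hcons x y hx.le hy)) (Fin.tail z) hz'
      have h2 : ∀ y : Fin n → ℂ, (∏ i, ((Fin.cons x y : Fin (n + 1) → ℂ) i - z i))⁻¹ * G (Fin.cons x y) =
          (x - z 0)⁻¹ * ((∏ i, (y i - Fin.tail z i))⁻¹ * G (Fin.cons x y)) := by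
        intro y
        rw [Fin.prod_univ_succ, mul_inv, mul_assoc]
        rfl
      simp_rw [h2]
      rw [torusIntegral_const_mul, h1]
      ring
    have hcirc : (∮ x in C(0, r), ∯ y in T(0, fun _ => r),
        (∏ i, ((Fin.cons x y : Fin (n + 1) → ℂ) i - z i))⁻¹ * G (Fin.cons x y)) =
        ∮ x in C(0, r), (2 * π * I) ^ n * ((x - z 0)⁻¹ * G (Fin.cons x (Fin.tail z))) := by
      refine circleIntegral.integral_congr hr.le fun x hx => hinner x ?_
      simpa using hx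
    rw [hcirc, circleIntegral.integral_const_mul]
    have hd : Differentiable ℂ fun x : ℂ => (Fin.cons x (Fin.tail z) : Fin (n + 1) → ℂ) := by
      rw [differentiable_pi]
      intro i
      refine Fin.cases ?_ (fun j => ?_) i
      · simp
      · simp
    have hg : DifferentiableOn ℂ (fun x : ℂ => G (Fin.cons x (Fin.tail z))) (closedBall 0 r) :=
      hG.comp hd.differentiableOn fun x hx => hVr (hcons x _ (by simpa using hx)
        (ball_subset_closedBall hz'))
    have h3 := hg.circleIntegral_sub_inv_smul (w := z 0) (by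
      simpa using norm_lt_of_mem_ball hz 0)
    simp only [smul_eq_mul] at h3
    rw [h3, Fin.cons_self_tail]
    ring

/-- Power series coefficients as torus integrals. -/
noncomputable def cf {n : ℕ} (r : ℝ) (G : (Fin n → ℂ) → ℂ) : MvPowerSeries (Fin n) ℂ :=
  fun m => ((2 * π * I) ^ n)⁻¹ * ∯ ζ in T(0, fun _ => r), (∏ i, ζ i ^ (m i + 1))⁻¹ * G ζ

lemma coeff_cf {n : ℕ} (r : ℝ) (G : (Fin n → ℂ) → ℂ) (m : Fin n →₀ ℕ) :
    coeff m (cf r G) =
      ((2 * π * I) ^ n)⁻¹ * ∯ ζ in T(0, fun _ => r), (∏ i, ζ i ^ (m i + 1))⁻¹ * G ζ := rfl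

lemma norm_kernel {n : ℕ} {r : ℝ} (hr : 0 < r) (m : Fin n →₀ ℕ) (θ : Fin n → ℝ) :
    ‖(∏ i, (torusMap (0 : Fin n → ℂ) (fun _ => r) θ i) ^ (m i + 1))⁻¹‖ =
      (∏ i : Fin n, r⁻¹ ^ m i) * r⁻¹ ^ n := by
  rw [norm_inv, norm_prod]
  have : ∀ i, ‖(torusMap (0 : Fin n → ℂ) (fun _ => r) θ i) ^ (m i + 1)‖ = r ^ (m i + 1) := by
    intro i; rw [norm_pow, norm_torusMap hr]
  simp_rw [this, pow_succ]
  rw [Finset.prod_mul_distrib, mul_inv, Finset.prod_const, Finset.card_univ, Fintype.card_fin,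
    ← Finset.prod_inv_distrib, inv_pow]
  simp_rw [inv_pow]

/-- Cauchy estimates. -/
lemma norm_coeff_cf_le {n : ℕ} {r : ℝ} (hr : 0 < r) {G : (Fin n → ℂ) → ℂ} {M : ℝ}
    (hM : ∀ z ∈ closedBall (0 : Fin n → ℂ) r, ‖G z‖ ≤ M) (m : Fin n →₀ ℕ) :
    ‖coeff m (cf r G)‖ ≤ M * ∏ i : Fin n, r⁻¹ ^ m i := by
  rw [coeff_cf, norm_mul]
  have h1 : ‖∯ ζ in T((0 : Fin n → ℂ), fun _ => r), (∏ i, ζ i ^ (m i + 1))⁻¹ * G ζ‖ ≤
      ((2 * π) ^ n * ∏ _i : Fin n, |r|) * (((∏ i : Fin n, r⁻¹ ^ m i) * r⁻¹ ^ n) * M) := by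
    refine norm_torusIntegral_le_of_norm_le_const fun θ => ?_
    rw [norm_mul, norm_kernel hr]
    exact mul_le_mul_of_nonneg_left (hM _ (torusMap_mem hr θ)) (by positivity)
  have h2 : ‖((2 * π * I) ^ n)⁻¹‖ = ((2 * π) ^ n)⁻¹ := by
    rw [norm_inv, norm_pow, norm_mul, norm_mul, Complex.norm_I, mul_one, Complex.norm_real,
      Real.norm_of_nonneg Real.pi_pos.le]
    norm_num
  rw [h2]
  calc _ ≤ ((2 * π) ^ n)⁻¹ * (((2 * π) ^ n * ∏ _i : Fin n, |r|) *
        (((∏ i : Fin n, r⁻¹ ^ m i) * r⁻¹ ^ n) * M)) :=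
        mul_le_mul_of_nonneg_left h1 (by positivity)
    _ = M * ∏ i : Fin n, r⁻¹ ^ m i := by
        rw [Finset.prod_const, Finset.card_univ, Fintype.card_fin, abs_of_pos hr, inv_pow r n]
        have h3 : (2 * π) ^ n ≠ 0 := by positivity
        have h4 : r ^ n ≠ 0 := by positivity
        field_simp

/-- **Power series expansion** on a polydisc. -/
theorem hasSum_cf {n : ℕ} {r : ℝ} (hr : 0 < r) {G : (Fin n → ℂ) → ℂ} {V : Set (Fin n → ℂ)}
    (hV : IsOpen V) (hG : DifferentiableOn ℂ G V) (hVr : closedBall 0 r ⊆ V) {z : Fin n → ℂ}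
    (hz : z ∈ ball (0 : Fin n → ℂ) r) :
    HasSum (fun m => coeff m (cf r G) * mon m z) (G z) := by
  have hcpt : IsCompact (closedBall (0 : Fin n → ℂ) r) := isCompact_closedBall _ _
  obtain ⟨M, hM⟩ : ∃ M, ∀ z ∈ closedBall (0 : Fin n → ℂ) r, ‖G z‖ ≤ M :=
    hcpt.exists_bound_of_continuousOn (hG.continuousOn.mono hVr)
  have hM0 : 0 ≤ M := (norm_nonneg _).trans (hM 0 (mem_closedBall_self hr.le))
  -- the integrands
  set ζ : (Fin n → ℝ) → (Fin n → ℂ) := torusMap (0 : Fin n → ℂ) (fun _ => r) with hζ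
  set μ : Measure (Fin n → ℝ) := volume.restrict (Set.Icc (0 : Fin n → ℝ) fun _ => 2 * π) with hμ
  set F : (Fin n →₀ ℕ) → (Fin n → ℝ) → ℂ := fun m θ =>
    (∏ i, (r : ℂ) * exp (θ i * I) * I) • (mon m z * ((∏ i, (ζ θ i) ^ (m i + 1))⁻¹ * G (ζ θ))) with hF
  have hcontker : ∀ m : Fin n →₀ ℕ, Continuous fun θ => (∏ i, (ζ θ i) ^ (m i + 1))⁻¹ := by
    intro m
    refine Continuous.inv₀ ?_ fun θ => Finset.prod_ne_zero_iff.mpr fun i _ => pow_ne_zero _ ?_
    · refine continuous_finsetProd _ fun i _ => Continuous.pow ?_ _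
      simp only [hζ]; unfold torusMap; fun_prop
    · intro h
      have := norm_torusMap hr θ i
      rw [← hζ, h, norm_zero] at this
      exact hr.ne this
  have hFc : ∀ m, Continuous (F m) := by
    intro m
    have h1 : Continuous fun θ : Fin n → ℝ => ∏ i, (r : ℂ) * exp (θ i * I) * I := by fun_prop
    exact h1.smul (continuous_const.mul ((hcontker m).mul (continuous_G hr hG hVr)))
  have hFint : ∀ m, Integrable (F m) μ := fun m =>
    (hFc m).continuousOn.integrableOn_compact isCompact_Icc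
  have hnormF : ∀ m θ, ‖F m θ‖ ≤ (∏ i, (‖z i‖ * r⁻¹) ^ m i) * M := by
    intro m θ
    have e1 : ‖∏ i : Fin n, (r : ℂ) * exp (θ i * I) * I‖ = r ^ n := by
      rw [norm_prod]
      simp [abs_of_pos hr]
    have e2 : ‖mon m z‖ = ∏ i, ‖z i‖ ^ m i := by
      unfold mon; rw [norm_prod]; simp_rw [norm_pow]
    rw [hF]
    simp only [norm_smul, norm_mul]
    have e3 := norm_kernel hr m θ
    rw [e1, e2, hζ, e3]
    calc _ ≤ r ^ n * ((∏ i, ‖z i‖ ^ m i) * ((∏ i : Fin n, r⁻¹ ^ m i) * r⁻¹ ^ n * M)) := by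
          refine mul_le_mul_of_nonneg_left (mul_le_mul_of_nonneg_left
            (mul_le_mul_of_nonneg_left (hM _ (torusMap_mem hr θ)) (by positivity)) ?_) (by positivity)
          exact Finset.prod_nonneg fun i _ => pow_nonneg (norm_nonneg _) _
      _ = _ := by
          simp_rw [mul_pow]
          rw [Finset.prod_mul_distrib, inv_pow r n]
          have h4 : r ^ n ≠ 0 := by positivity
          field_simp
  have hsummable : Summable fun m : Fin n →₀ ℕ => (∏ i, (‖z i‖ * r⁻¹) ^ m i) * M := by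
    refine Summable.mul_right _ (summable_prod_pow _ (fun i => by positivity) fun i => ?_)
    rw [← div_eq_mul_inv, div_lt_one hr]
    exact norm_lt_of_mem_ball hz i
  have hFsum : Summable fun m => ∫ θ, ‖F m θ‖ ∂μ := by
    refine Summable.of_nonneg_of_le (fun m => integral_nonneg fun _ => norm_nonneg _)
      (fun m => ?_) (hsummable.mul_right (μ.real Set.univ))
    have : IsFiniteMeasure μ := ⟨by
      rw [hμ, Measure.restrict_apply_univ]; exact measure_Icc_lt_top⟩
    calc ∫ θ, ‖F m θ‖ ∂μ ≤ ∫ _θ, ((∏ i, (‖z i‖ * r⁻¹) ^ m i) * M) ∂μ :=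
          integral_mono (hFint m).norm (integrable_const _) fun θ => hnormF m θ
      _ = _ := by
          rw [integral_const, smul_eq_mul, mul_comm]
  have : Countable (Fin n →₀ ℕ) := Finsupp.equivFunOnFinite.countable_iff.mpr inferInstance
  have key := hasSum_integral_of_summable_integral_norm hFint hFsum
  -- pointwise sum
  have hpt : ∀ θ, ∑' m, F m θ = (∏ i, (r : ℂ) * exp (θ i * I) * I) •
      ((∏ i, (ζ θ i - z i))⁻¹ * G (ζ θ)) := by
    intro θ
    have hne : ∀ i, ζ θ i ≠ 0 := by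
      intro i h
      have := norm_torusMap hr θ i
      rw [← hζ, h, norm_zero] at this
      exact hr.ne this
    have h1 := hasSum_mon (fun i => z i / ζ θ i) (fun i => by
      rw [norm_div, norm_torusMap hr θ i, div_lt_one hr]
      exact norm_lt_of_mem_ball hz i)
    have h2 : ∀ m, F m θ = ((∏ i, (r : ℂ) * exp (θ i * I) * I) • ((∏ i, (ζ θ i))⁻¹ * G (ζ θ))) *
        mon m (fun i => z i / ζ θ i) := by
      intro m
      rw [hF]
      simp only [mon, smul_eq_mul, div_pow, Finset.prod_div_distrib, pow_succ,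
        Finset.prod_mul_distrib]
      rw [mul_inv]
      ring
    simp_rw [h2]
    rw [(h1.mul_left _).tsum_eq]
    simp only [smul_eq_mul]
    have h3 : (∏ i, (ζ θ i - z i))⁻¹ = (∏ i, (ζ θ i))⁻¹ * ∏ i, (1 - z i / ζ θ i)⁻¹ := by
      rw [← Finset.prod_inv_distrib, ← Finset.prod_inv_distrib, ← Finset.prod_mul_distrib]
      refine Finset.prod_congr rfl fun i _ => ?_
      rw [← mul_inv, mul_sub, mul_one, mul_div_cancel₀ _ (hne i)]
    rw [h3]
    ring
  simp_rw [hpt] at key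
  have hc := cauchy n hr G V hV hG hVr z hz
  unfold torusIntegral at hc
  have key2 : HasSum (fun m => ∫ θ, F m θ ∂μ) ((2 * π * I) ^ n * G z) := by
    rw [← hc]; exact key
  have h2pi : (2 * (π : ℂ) * I) ^ n ≠ 0 := by
    apply pow_ne_zero
    simp [Real.pi_ne_zero]
  have key3 := key2.mul_left ((2 * (π : ℂ) * I) ^ n)⁻¹
  rw [← mul_assoc, inv_mul_cancel₀ h2pi, one_mul] at key3
  have hfin : (fun m => coeff m (cf r G) * mon m z) =
      fun m => ((2 * (π : ℂ) * I) ^ n)⁻¹ * ∫ θ, F m θ ∂μ := by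
    funext m
    rw [coeff_cf]
    unfold torusIntegral
    rw [mul_assoc, ← integral_mul_const]
    congr 1
    refine integral_congr_ae (Filter.Eventually.of_forall fun θ => ?_)
    simp only [hF, hζ, smul_eq_mul]
    ring
  rw [hfin]
  exact key3

end Groth.Agent.Gaga.H9.Cauchy
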