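import Groth.Agent.Gaga.H9.Div
import Mathlib.Data.Finsupp.PWO
import Mathlib.RingTheory.Noetherian.Basic

/-!
The ring `conv n` of convergent power series in `n` variables over `ℂ`; it is Noetherian.
-/

set_option autoImplicit false

open scoped ENNReal
open MvPowerSeries
open Groth.Agent.Gaga.H9.Wt Groth.Agent.Gaga.H9.Div

namespace Groth.Agent.Gaga.H9.Conv

/-- Convergent power series: finite weighted norm for some exponent. -/
noncomputable def conv (n : ℕ) : Subalgebra ℂ (MvPowerSeries (Fin n) ℂ) where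
  carrier := {f | ∃ s, nrm s f ≠ ⊤}
  mul_mem' := by
    rintro f g ⟨s, hs⟩ ⟨t, ht⟩
    refine ⟨max s t, ne_top_of_le_ne_top ?_ (nrm_mul _ f g)⟩
    exact ENNReal.mul_ne_top (ne_top_of_le_ne_top hs (nrm_antitone (le_max_left _ _) _))
      (ne_top_of_le_ne_top ht (nrm_antitone (le_max_right _ _) _))
  add_mem' := by
    rintro f g ⟨s, hs⟩ ⟨t, ht⟩
    refine ⟨max s t, ne_top_of_le_ne_top ?_ (nrm_add _ f g)⟩
    exact ENNReal.add_ne_top.mpr ⟨ne_top_of_le_ne_top hs (nrm_antitone (le_max_left _ _) _),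
      ne_top_of_le_ne_top ht (nrm_antitone (le_max_right _ _) _)⟩
  algebraMap_mem' := by
    intro a
    refine ⟨0, ?_⟩
    have : algebraMap ℂ (MvPowerSeries (Fin n) ℂ) a = monomial 0 a := by
      rw [MvPowerSeries.algebraMap_apply]; rfl
    rw [this, nrm_monomial]
    exact ENNReal.mul_ne_top enorm_ne_top (wt_ne_top _ _)

variable {n : ℕ}

lemma mem_conv {f : MvPowerSeries (Fin n) ℂ} : f ∈ conv n ↔ ∃ s, nrm s f ≠ ⊤ := Iff.rfl

lemma monomial_mem (m : Fin n →₀ ℕ) (a : ℂ) : monomial m a ∈ conv n :=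
  ⟨0, by rw [nrm_monomial]; exact ENNReal.mul_ne_top enorm_ne_top (wt_ne_top _ _)⟩

/-- Division theorem inside the ring of convergent power series. -/
theorem conv_division {k : ℕ} (α : Fin k → (Fin n →₀ ℕ)) (f : Fin k → conv n)
    (h1 : ∀ j, coeff (α j) (f j : MvPowerSeries (Fin n) ℂ) = 1)
    (h0 : ∀ j b, N b < N (α j) → coeff b (f j : MvPowerSeries (Fin n) ℂ) = 0) (g : conv n) :
    ∃ (q : Fin k → conv n) (r : conv n), g = ∑ j, q j * f j + r ∧
      ∀ m, coeff m (r : MvPowerSeries (Fin n) ℂ) ≠ 0 → ∀ j, ¬ α j ≤ m := by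
  obtain ⟨s₀, hs₀⟩ := division α (fun j => (f j : MvPowerSeries (Fin n) ℂ)) h1 h0 (fun j => (f j).2)
  obtain ⟨t, ht⟩ := g.2
  obtain ⟨q, r, e, hq, hr, hm⟩ := hs₀ (max s₀ t) (le_max_left _ _) g
  have hg : nrm (max s₀ t) (g : MvPowerSeries (Fin n) ℂ) ≠ ⊤ :=
    ne_top_of_le_ne_top ht (nrm_antitone (le_max_right _ _) _)
  have hg2 : 2 * nrm (max s₀ t) (g : MvPowerSeries (Fin n) ℂ) ≠ ⊤ :=
    ENNReal.mul_ne_top (by simp) hg
  refine ⟨fun j => ⟨q j, max s₀ t, ?_⟩, ⟨r, max s₀ t, ne_top_of_le_ne_top hg2 hr⟩, ?_, hm⟩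
  · intro htop
    have := hq j
    rw [htop, ENNReal.top_mul (wt_ne_zero _ _)] at this
    exact hg2 (top_le_iff.mp this)
  · apply Subtype.ext
    simpa using e

/-- the set of initial exponents of an ideal -/
def inExp (I : Ideal (conv n)) : Set (Fin n →₀ ℕ) :=
  {m | ∃ f ∈ I, coeff m (f : MvPowerSeries (Fin n) ℂ) = 1 ∧
    ∀ b, N b < N m → coeff b (f : MvPowerSeries (Fin n) ℂ) = 0}

lemma exists_mem_inExp {I : Ideal (conv n)} {f : conv n} (hf : f ∈ I) (h0 : f ≠ 0) :
    ∃ m ∈ inExp I, coeff m (f : MvPowerSeries (Fin n) ℂ) ≠ 0 := by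
  classical
  have hex : ∃ M, ∃ m, N m = M ∧ coeff m (f : MvPowerSeries (Fin n) ℂ) ≠ 0 := by
    by_contra hcon
    push Not at hcon
    apply h0
    apply Subtype.ext
    ext m
    simpa using hcon _ m rfl
  obtain ⟨m, hm, hm'⟩ := Nat.find_spec hex
  have hmin : ∀ b, N b < N m → coeff b (f : MvPowerSeries (Fin n) ℂ) = 0 := by
    intro b hb
    by_contra hne
    exact Nat.find_min hex (hm ▸ hb) ⟨b, rfl, hne⟩
  refine ⟨m, ⟨(coeff m (f : MvPowerSeries (Fin n) ℂ))⁻¹ • f, ?_, ?_, ?_⟩, hm'⟩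
  · rw [Algebra.smul_def]
    exact I.mul_mem_left _ hf
  · change coeff m ((coeff m (f : MvPowerSeries (Fin n) ℂ))⁻¹ • (f : MvPowerSeries (Fin n) ℂ)) = 1
    rw [map_smul, smul_eq_mul, inv_mul_cancel₀ hm']
  · intro b hb
    change coeff b ((coeff m (f : MvPowerSeries (Fin n) ℂ))⁻¹ • (f : MvPowerSeries (Fin n) ℂ)) = 0
    rw [map_smul, hmin b hb, smul_zero]

/-- Finitely many exponents generate. -/
lemma exists_finset (E : Set (Fin n →₀ ℕ)) :
    ∃ F : Finset (Fin n →₀ ℕ), (F : Set (Fin n →₀ ℕ)) ⊆ E ∧ ∀ m ∈ E, ∃ a ∈ F, a ≤ m := by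
  classical
  have hanti : IsAntichain (· ≤ ·) {m | Minimal (· ∈ E) m} := setOfPred_minimal_antichain _
  have hfin : {m | Minimal (· ∈ E) m}.Finite := WellQuasiOrderedLE.finite_of_isAntichain hanti
  refine ⟨hfin.toFinset, ?_, ?_⟩
  · intro m hm
    simp only [Set.Finite.coe_toFinset, Set.mem_ofPred_eq] at hm
    exact hm.prop
  · intro m hm
    obtain ⟨a, ha, hmin⟩ := (Set.isPWO_of_wellQuasiOrderedLE E).exists_le_minimal hm
    exact ⟨a, by simpa using hmin, ha⟩

/-- **The ring of convergent power series is Noetherian.** -/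
theorem isNoetherianRing_conv : IsNoetherianRing (conv n) := by
  classical
  refine ⟨fun I => ?_⟩
  obtain ⟨F, hFE, hF⟩ := exists_finset (inExp I)
  choose! f hfI hf1 hf0 using fun m (hm : m ∈ inExp I) => hm
  have hfg : I = Ideal.span ((F.image f : Finset (conv n)) : Set (conv n)) := by
    apply le_antisymm
    · intro g hg
      set e := F.equivFin
      obtain ⟨q, r, e1, hr⟩ := conv_division (fun j => ((e.symm j : F) : Fin n →₀ ℕ))
        (fun j => f (e.symm j : F)) (fun j => hf1 _ (hFE (e.symm j).2))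
        (fun j b hb => hf0 _ (hFE (e.symm j).2) b hb) g
      have hsum : ∑ j, q j * f (e.symm j : F) ∈
          Ideal.span ((F.image f : Finset (conv n)) : Set (conv n)) := by
        refine sum_mem fun j _ => Ideal.mul_mem_left _ _ (Ideal.subset_span ?_)
        exact Finset.mem_coe.mpr (Finset.mem_image_of_mem _ (e.symm j).2)
      have hsumI : ∑ j, q j * f (e.symm j : F) ∈ I :=
        sum_mem fun j _ => Ideal.mul_mem_left _ _ (hfI _ (hFE (e.symm j).2))
      have hrI : r ∈ I := by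
        have : r = g - ∑ j, q j * f (e.symm j : F) := by rw [e1]; ring
        rw [this]
        exact I.sub_mem hg hsumI
      have hr0 : r = 0 := by
        by_contra hne
        obtain ⟨m, hm, hm'⟩ := exists_mem_inExp hrI hne
        obtain ⟨a, haF, ham⟩ := hF m hm
        refine hr m hm' (e ⟨a, haF⟩) ?_
        simpa using ham
      rw [e1, hr0, add_zero]
      exact hsum
    · rw [Ideal.span_le]
      intro x hx
      rw [Finset.mem_coe, Finset.mem_image] at hx
      obtain ⟨a, ha, rfl⟩ := hx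
      exact hfI a (hFE ha)
  exact ⟨F.image f, hfg.symm⟩

end Groth.Agent.Gaga.H9.Conv
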