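import Groth.Agent.Gaga.H9.Wt
import Mathlib.Analysis.SpecificLimits.Basic

/-!
Grauert–Hironaka division with estimates for power series over `ℂ`.
-/

set_option autoImplicit false

open scoped ENNReal
open MvPowerSeries
open Groth.Agent.Gaga.H9.Wt

namespace Groth.Agent.Gaga.H9.Div

variable {n k : ℕ}

section ops

variable (α : Fin k → (Fin n →₀ ℕ))

open Classical in
/-- which `α j` divides `m` (a choice) -/
noncomputable def J (m : Fin n →₀ ℕ) : Option (Fin k) :=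
  if h : ∃ j, α j ≤ m then some h.choose else none

lemma J_some {m : Fin n →₀ ℕ} {j : Fin k} (h : J α m = some j) : α j ≤ m := by
  unfold J at h
  split_ifs at h with h'
  rw [Option.some.injEq] at h
  rw [← h]; exact h'.choose_spec

lemma J_none {m : Fin n →₀ ℕ} (h : J α m = none) (j : Fin k) : ¬ α j ≤ m := by
  unfold J at h
  split_ifs at h with h'
  exact fun hj => h' ⟨j, hj⟩

/-- quotients by the monomials `α j` -/
noncomputable def Q (j : Fin k) (f : MvPowerSeries (Fin n) ℂ) : MvPowerSeries (Fin n) ℂ :=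
  fun a => if J α (a + α j) = some j then coeff (a + α j) f else 0

/-- remainder -/
noncomputable def R (f : MvPowerSeries (Fin n) ℂ) : MvPowerSeries (Fin n) ℂ :=
  fun m => if J α m = none then coeff m f else 0

lemma coeff_Q (j : Fin k) (f : MvPowerSeries (Fin n) ℂ) (a : Fin n →₀ ℕ) :
    coeff a (Q α j f) = if J α (a + α j) = some j then coeff (a + α j) f else 0 := rfl

lemma coeff_R (f : MvPowerSeries (Fin n) ℂ) (m : Fin n →₀ ℕ) :
    coeff m (R α f) = if J α m = none then coeff m f else 0 := rfl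

lemma decomp (f : MvPowerSeries (Fin n) ℂ) :
    f = ∑ j, Q α j f * monomial (α j) (1 : ℂ) + R α f := by
  classical
  ext m
  rw [map_add, map_sum, coeff_R]
  have h : ∀ j, coeff m (Q α j f * monomial (α j) (1 : ℂ)) =
      if J α m = some j then coeff m f else 0 := by
    intro j
    rw [coeff_mul_monomial, mul_one]
    by_cases hj : α j ≤ m
    · rw [if_pos hj, coeff_Q, tsub_add_cancel_of_le hj]
    · rw [if_neg hj, if_neg]
      exact fun h => hj (J_some α h)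
  simp_rw [h]
  rcases hJ : J α m with _ | j
  · simp
  · simp

lemma nrm_R (s : ℕ) (f : MvPowerSeries (Fin n) ℂ) : nrm s (R α f) ≤ nrm s f := by
  refine ENNReal.tsum_le_tsum fun m => ?_
  rw [coeff_R]
  split_ifs
  · exact le_rfl
  · simp

lemma nrm_Q (s : ℕ) (f : MvPowerSeries (Fin n) ℂ) :
    ∑ j, nrm s (Q α j f) * wt s (α j) ≤ nrm s f := by
  classical
  have h1 : ∀ j, nrm s (Q α j f) * wt s (α j) ≤
      ∑' m, if J α m = some j then ‖coeff m f‖ₑ * wt s m else 0 := by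
    intro j
    unfold nrm
    rw [← ENNReal.tsum_mul_right]
    have h2 : ∀ a, ‖coeff a (Q α j f)‖ₑ * wt s a * wt s (α j) =
        (fun m => if J α m = some j then ‖coeff m f‖ₑ * wt s m else 0) (a + α j) := by
      intro a
      dsimp only
      rw [coeff_Q]
      split_ifs
      · rw [wt_add, mul_assoc]
      · simp
    simp_rw [h2]
    exact ENNReal.tsum_comp_le_tsum_of_injective (add_left_injective (α j)) _
  calc _ ≤ ∑ j, ∑' m, (if J α m = some j then ‖coeff m f‖ₑ * wt s m else 0) :=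
        Finset.sum_le_sum fun j _ => h1 j
    _ = ∑' m, ∑ j, (if J α m = some j then ‖coeff m f‖ₑ * wt s m else 0) := by
        rw [← tsum_fintype (L := .unconditional _), ENNReal.tsum_comm]
        simp_rw [tsum_fintype]
    _ ≤ ∑' m, ‖coeff m f‖ₑ * wt s m := by
        refine ENNReal.tsum_le_tsum fun m => ?_
        rcases hJ : J α m with _ | j
        · simp
        · simp

lemma nrm_Q_single (s : ℕ) (f : MvPowerSeries (Fin n) ℂ) (j : Fin k) :
    nrm s (Q α j f) * wt s (α j) ≤ nrm s f :=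
  (Finset.single_le_sum (f := fun j => nrm s (Q α j f) * wt s (α j))
    (fun _ _ => zero_le) (Finset.mem_univ j)).trans (nrm_Q α s f)

/-- the contraction operator -/
noncomputable def phi (h : Fin k → MvPowerSeries (Fin n) ℂ) (f : MvPowerSeries (Fin n) ℂ) :
    MvPowerSeries (Fin n) ℂ :=
  - ∑ j, Q α j f * h j

lemma nrm_phi (s : ℕ) (h : Fin k → MvPowerSeries (Fin n) ℂ) (ε : ℝ≥0∞)
    (hh : ∀ j, nrm s (h j) ≤ ε * wt s (α j)) (f : MvPowerSeries (Fin n) ℂ) :
    nrm s (phi α h f) ≤ ε * nrm s f := by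
  unfold phi
  rw [nrm_neg]
  calc _ ≤ ∑ j, nrm s (Q α j f * h j) := nrm_sum _ _ _
    _ ≤ ∑ j, nrm s (Q α j f) * nrm s (h j) := Finset.sum_le_sum fun j _ => nrm_mul _ _ _
    _ ≤ ∑ j, nrm s (Q α j f) * (ε * wt s (α j)) := Finset.sum_le_sum fun j _ =>
        mul_le_mul_right (hh j) _
    _ = ε * ∑ j, nrm s (Q α j f) * wt s (α j) := by
        rw [Finset.mul_sum]; refine Finset.sum_congr rfl fun j _ => ?_; ring
    _ ≤ _ := mul_le_mul_right (nrm_Q α s f) _

lemma phi_congr (h : Fin k → MvPowerSeries (Fin n) ℂ)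
    (hh : ∀ j b, N b ≤ N (α j) → coeff b (h j) = 0) (M : ℕ) (f f' : MvPowerSeries (Fin n) ℂ)
    (hff : ∀ m, N m < M → coeff m f = coeff m f') (m : Fin n →₀ ℕ) (hm : N m ≤ M) :
    coeff m (phi α h f) = coeff m (phi α h f') := by
  classical
  unfold phi
  simp only [map_neg, map_sum, neg_inj]
  refine Finset.sum_congr rfl fun j _ => ?_
  rw [coeff_mul, coeff_mul]
  refine Finset.sum_congr rfl fun p hp => ?_
  rw [Finset.mem_antidiagonal] at hp
  by_cases hb : N p.2 ≤ N (α j)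
  · rw [hh j _ hb]; simp
  · congr 1
    rw [coeff_Q, coeff_Q, hff]
    refine lt_of_lt_of_le ?_ hm
    rw [N_add, ← hp, N_add]
    exact Nat.mul_lt_mul_of_pos_left (not_le.mp hb) (N_pos _)

/-- iterates -/
noncomputable def x (h : Fin k → MvPowerSeries (Fin n) ℂ) (g : MvPowerSeries (Fin n) ℂ) :
    ℕ → MvPowerSeries (Fin n) ℂ
  | 0 => 0
  | i + 1 => g + phi α h (x h g i)

lemma x_succ_eq (h : Fin k → MvPowerSeries (Fin n) ℂ)
    (hh : ∀ j b, N b ≤ N (α j) → coeff b (h j) = 0) (g : MvPowerSeries (Fin n) ℂ) (i : ℕ) :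
    ∀ m, N m ≤ i → coeff m (x α h g (i + 1)) = coeff m (x α h g i) := by
  induction i with
  | zero => intro m hm; exact absurd hm (by simpa using (N_pos m).ne')
  | succ i ih =>
    intro m hm
    change coeff m (g + phi α h (x α h g (i + 1))) = coeff m (g + phi α h (x α h g i))
    rw [map_add, map_add]
    congr 1
    exact phi_congr α h hh (i + 1) _ _ (fun m' hm' => ih m' (Nat.lt_succ_iff.mp hm')) m hm

lemma x_eq (h : Fin k → MvPowerSeries (Fin n) ℂ)
    (hh : ∀ j b, N b ≤ N (α j) → coeff b (h j) = 0) (g : MvPowerSeries (Fin n) ℂ) (i j : ℕ)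
    (m : Fin n →₀ ℕ) (hm : N m ≤ i) : coeff m (x α h g (i + j)) = coeff m (x α h g i) := by
  induction j with
  | zero => rfl
  | succ j ih => rw [← ih, ← add_assoc]; exact x_succ_eq α h hh g _ m (by omega)

/-- the fixed point -/
noncomputable def G (h : Fin k → MvPowerSeries (Fin n) ℂ) (g : MvPowerSeries (Fin n) ℂ) :
    MvPowerSeries (Fin n) ℂ := fun m => coeff m (x α h g (N m))

lemma coeff_G (h : Fin k → MvPowerSeries (Fin n) ℂ)
    (hh : ∀ j b, N b ≤ N (α j) → coeff b (h j) = 0) (g : MvPowerSeries (Fin n) ℂ) (i : ℕ)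
    (m : Fin n →₀ ℕ) (hm : N m ≤ i) : coeff m (G α h g) = coeff m (x α h g i) := by
  obtain ⟨j, rfl⟩ := Nat.exists_eq_add_of_le hm
  exact (x_eq α h hh g _ j m le_rfl).symm

lemma G_eq (h : Fin k → MvPowerSeries (Fin n) ℂ)
    (hh : ∀ j b, N b ≤ N (α j) → coeff b (h j) = 0) (g : MvPowerSeries (Fin n) ℂ) :
    G α h g = g + phi α h (G α h g) := by
  ext m
  rw [coeff_G α h hh g (N m + 1) m (by omega)]
  change coeff m (g + phi α h (x α h g (N m))) = _
  rw [map_add, map_add]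
  congr 1
  exact phi_congr α h hh (N m) _ _ (fun m' hm' => (coeff_G α h hh g _ m' hm'.le).symm) m le_rfl

/-- truncation -/
noncomputable def tr (M : ℕ) (f : MvPowerSeries (Fin n) ℂ) : MvPowerSeries (Fin n) ℂ :=
  fun m => if N m ≤ M then coeff m f else 0

lemma coeff_tr (M : ℕ) (f : MvPowerSeries (Fin n) ℂ) (m : Fin n →₀ ℕ) :
    coeff m (tr M f) = if N m ≤ M then coeff m f else 0 := rfl

lemma nrm_tr_ne_top (s M : ℕ) (f : MvPowerSeries (Fin n) ℂ) : nrm s (tr M f) ≠ ⊤ := by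
  unfold nrm
  rw [tsum_eq_sum (s := (finite_le (n := n) M).toFinset)]
  · exact ENNReal.sum_ne_top.mpr fun m _ => ENNReal.mul_ne_top enorm_ne_top (wt_ne_top _ _)
  · intro m hm
    rw [coeff_tr, if_neg]
    · simp
    · simpa using hm

lemma nrm_le_of_tr (s : ℕ) (f : MvPowerSeries (Fin n) ℂ) (C : ℝ≥0∞)
    (h : ∀ M, nrm s (tr M f) ≤ C) : nrm s f ≤ C := by
  unfold nrm
  rw [ENNReal.tsum_eq_iSup_sum]
  refine iSup_le fun F => ?_
  obtain ⟨M, hM⟩ : ∃ M, ∀ m ∈ F, N m ≤ M := ⟨F.sup N, fun m hm => Finset.le_sup hm⟩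
  refine le_trans ?_ (h M)
  refine le_trans (le_of_eq ?_) (ENNReal.sum_le_tsum F)
  refine Finset.sum_congr rfl fun m hm => ?_
  rw [coeff_tr, if_pos (hM m hm)]

lemma nrm_G (s : ℕ) (h : Fin k → MvPowerSeries (Fin n) ℂ)
    (hh : ∀ j b, N b ≤ N (α j) → coeff b (h j) = 0)
    (hs : ∀ j, nrm s (h j) ≤ 2⁻¹ * wt s (α j)) (g : MvPowerSeries (Fin n) ℂ) :
    nrm s (G α h g) ≤ 2 * nrm s g := by
  refine nrm_le_of_tr s _ _ fun M => ?_
  have h1 : nrm s (tr M (G α h g)) ≤ nrm s g + 2⁻¹ * nrm s (tr M (G α h g)) := by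
    refine le_trans ?_ (add_le_add_right (nrm_phi α s h _ hs (tr M (G α h g))) _)
    refine le_trans ?_ (nrm_add s _ _)
    refine ENNReal.tsum_le_tsum fun m => ?_
    rw [coeff_tr]
    split_ifs with hm
    · have : coeff m (G α h g) = coeff m (g + phi α h (tr M (G α h g))) := by
        conv_lhs => rw [G_eq α h hh g]
        rw [map_add, map_add]
        congr 1
        refine phi_congr α h hh M _ _ (fun m' hm' => ?_) m hm
        rw [coeff_tr, if_pos hm'.le]
      rw [this]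
    · simp
  have h2 := nrm_tr_ne_top s M (G α h g)
  set a := nrm s (tr M (G α h g))
  have h3 : a = 2⁻¹ * a + 2⁻¹ * a := by
    rw [← add_mul, ENNReal.inv_two_add_inv_two, one_mul]
  have h4 : 2⁻¹ * a ≤ nrm s g := by
    have h5 : 2⁻¹ * a ≠ ⊤ := ENNReal.mul_ne_top (by simp) h2
    refine (ENNReal.add_le_add_iff_right h5).mp ?_
    rwa [← h3]
  calc a = 2 * (2⁻¹ * a) := by
        rw [← mul_assoc, ENNReal.mul_inv_cancel (by simp) (by simp), one_mul]
    _ ≤ _ := mul_le_mul_right h4 _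

end ops

/-- `nrm (s+t) h` is small compared with `wt (s+t) α` if all exponents of `h` are larger than `α`. -/
lemma exists_small (a : Fin n →₀ ℕ) (h : MvPowerSeries (Fin n) ℂ)
    (hh : ∀ b, N b ≤ N a → coeff b h = 0) (hf : ∃ s, nrm s h ≠ ⊤) :
    ∃ s₀, ∀ s, s₀ ≤ s → nrm s h ≤ 2⁻¹ * wt s a := by
  obtain ⟨s, hs⟩ := hf
  -- basic estimate
  have h1 : ∀ t, nrm (s + t) h ≤ nrm s h * (((N a + 1 : ℕ) : ℝ≥0∞) ^ t)⁻¹ := by
    intro t
    unfold nrm
    rw [← ENNReal.tsum_mul_right]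
    refine ENNReal.tsum_le_tsum fun m => ?_
    by_cases hm : N m ≤ N a
    · rw [hh m hm]; simp
    · rw [wt_add_exp, ← mul_assoc]
      refine mul_le_mul_right ?_ _
      unfold wt
      rw [ENNReal.inv_le_inv]
      gcongr
      omega
  -- the ratio
  set r : ℝ≥0∞ := (N a : ℝ≥0∞) * ((N a + 1 : ℕ) : ℝ≥0∞)⁻¹ with hr
  have hr1 : r < 1 := by
    rw [hr, ← div_eq_mul_inv]
    refine ENNReal.div_lt_of_lt_mul ?_
    rw [one_mul]
    exact_mod_cast Nat.lt_succ_self _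
  have h2 := (ENNReal.tendsto_pow_atTop_nhds_zero_of_lt_one hr1)
  set C : ℝ≥0∞ := nrm s h * (N a : ℝ≥0∞) ^ s with hC
  have hCtop : C ≠ ⊤ := ENNReal.mul_ne_top hs (ENNReal.pow_ne_top (ENNReal.natCast_ne_top _))
  have h3 : Filter.Tendsto (fun t => C * r ^ t) Filter.atTop (nhds 0) := by
    simpa using ENNReal.Tendsto.const_mul h2 (Or.inr hCtop)
  have h4 : ∀ᶠ t in Filter.atTop, C * r ^ t < 2⁻¹ :=
    h3.eventually (gt_mem_nhds (by simp))
  obtain ⟨t₀, ht₀⟩ := Filter.eventually_atTop.mp h4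
  refine ⟨s + t₀, fun s' hs' => ?_⟩
  obtain ⟨t, rfl⟩ : ∃ t, s' = s + t := ⟨s' - s, by omega⟩
  have ht : t₀ ≤ t := by omega
  have hNa : (N a : ℝ≥0∞) ≠ 0 := N_ne_zero' a
  have hNa' : (N a : ℝ≥0∞) ≠ ⊤ := ENNReal.natCast_ne_top _
  refine (h1 t).trans ?_
  have key : nrm s h * (((N a + 1 : ℕ) : ℝ≥0∞) ^ t)⁻¹ = (C * r ^ t) * wt (s + t) a := by
    rw [hC, hr, wt_add_exp, mul_pow, ENNReal.inv_pow]
    unfold wt
    have e1 : (N a : ℝ≥0∞) ^ s * ((N a : ℝ≥0∞) ^ s)⁻¹ = 1 :=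
      ENNReal.mul_inv_cancel (pow_ne_zero _ hNa) (ENNReal.pow_ne_top hNa')
    have e2 : (N a : ℝ≥0∞) ^ t * ((N a : ℝ≥0∞) ^ t)⁻¹ = 1 :=
      ENNReal.mul_inv_cancel (pow_ne_zero _ hNa) (ENNReal.pow_ne_top hNa')
    calc _ = nrm s h * (((N a + 1 : ℕ) : ℝ≥0∞)⁻¹) ^ t * ((N a : ℝ≥0∞) ^ s * ((N a : ℝ≥0∞) ^ s)⁻¹) *
          ((N a : ℝ≥0∞) ^ t * ((N a : ℝ≥0∞) ^ t)⁻¹) := by
          rw [e1, e2, mul_one, mul_one]
      _ = _ := by rw [← ENNReal.inv_pow]; ring
  rw [key]
  exact mul_le_mul_left (ht₀ t ht).le _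

/-- **Division theorem** (Grauert, Hironaka). -/
theorem division (α : Fin k → (Fin n →₀ ℕ)) (f : Fin k → MvPowerSeries (Fin n) ℂ)
    (h1 : ∀ j, coeff (α j) (f j) = 1) (h0 : ∀ j b, N b < N (α j) → coeff b (f j) = 0)
    (hf : ∀ j, ∃ s, nrm s (f j) ≠ ⊤) :
    ∃ s₀, ∀ s, s₀ ≤ s → ∀ g : MvPowerSeries (Fin n) ℂ, ∃ (q : Fin k → MvPowerSeries (Fin n) ℂ)
      (r : MvPowerSeries (Fin n) ℂ), g = ∑ j, q j * f j + r ∧
        (∀ j, nrm s (q j) * wt s (α j) ≤ 2 * nrm s g) ∧ nrm s r ≤ 2 * nrm s g ∧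
        ∀ m, coeff m r ≠ 0 → ∀ j, ¬ α j ≤ m := by
  classical
  set h : Fin k → MvPowerSeries (Fin n) ℂ := fun j => f j - monomial (α j) 1 with hh
  have hfh : ∀ j, f j = monomial (α j) 1 + h j := fun j => by simp [hh]
  have hN : ∀ j b, N b ≤ N (α j) → coeff b (h j) = 0 := by
    intro j b hb
    rw [hh]
    simp only [map_sub]
    rcases eq_or_lt_of_le hb with hb | hb
    · have := N_injective hb
      subst this
      rw [h1, coeff_monomial_same, sub_self]
    · rw [h0 j b hb, coeff_monomial_ne, sub_self]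
      rintro rfl
      exact lt_irrefl _ hb
  have hfin : ∀ j, ∃ s, nrm s (h j) ≠ ⊤ := by
    intro j
    obtain ⟨s, hs⟩ := hf j
    refine ⟨s, ne_top_of_le_ne_top ?_ (le_trans (le_of_eq ?_) (nrm_add s (f j) (-(monomial (α j) 1))))⟩
    · rw [nrm_neg, nrm_monomial]
      exact ENNReal.add_ne_top.mpr ⟨hs, ENNReal.mul_ne_top enorm_ne_top (wt_ne_top _ _)⟩
    · simp only [hh, sub_eq_add_neg]
  choose s₀ hs₀ using fun j => exists_small (α j) (h j) (hN j) (hfin j)
  refine ⟨Finset.univ.sup s₀, fun s hs g => ?_⟩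
  have hs' : ∀ j, nrm s (h j) ≤ 2⁻¹ * wt s (α j) := fun j =>
    hs₀ j s ((Finset.le_sup (Finset.mem_univ j)).trans hs)
  refine ⟨fun j => Q α j (G α h g), R α (G α h g), ?_, ?_, ?_, ?_⟩
  · have e1 := G_eq α h hN g
    have e2 := decomp α (G α h g)
    have e3 : g = G α h g - phi α h (G α h g) := by
      conv_rhs => lhs; rw [e1]
      rw [add_sub_cancel_right]
    conv_lhs => rw [e3]; lhs; rw [e2]
    unfold phi
    simp_rw [hfh, mul_add, Finset.sum_add_distrib]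
    ring
  · intro j
    exact (nrm_Q_single α s _ j).trans (nrm_G α s h hN hs' g)
  · exact (nrm_R α s _).trans (nrm_G α s h hN hs' g)
  · intro m hm j
    rw [coeff_R] at hm
    split_ifs at hm with hJ
    · exact J_none α hJ j
    · exact absurd rfl hm

end Groth.Agent.Gaga.H9.Div
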