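import Groth.Agent.Gaga.H9.Conv
import Mathlib.Analysis.Calculus.SmoothSeries
import Mathlib.Analysis.Normed.Ring.InfiniteSum
import Mathlib.Analysis.Calculus.FDeriv.Mul
import Mathlib.Analysis.Calculus.FDeriv.Pi
import Mathlib.Analysis.Calculus.Deriv.Pow
import Mathlib.Analysis.Calculus.Deriv.Comp

/-!
Evaluation of convergent power series on small polydiscs: sums, products, differentiability.
-/

set_option autoImplicit false

open scoped ENNReal
open MvPowerSeries
open Groth.Agent.Gaga.H9.Wt Groth.Agent.Gaga.H9.Conv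

namespace Groth.Agent.Gaga.H9.Eval

variable {n : ℕ}

/-- The polyradius `p_i^{-s}`. -/
noncomputable def rad (s : ℕ) (i : Fin n) : ℝ := ((Nat.nth Nat.Prime i : ℝ) ^ s)⁻¹

lemma rad_pos (s : ℕ) (i : Fin n) : 0 < rad s i := by
  have : (0 : ℝ) < Nat.nth Nat.Prime i := by exact_mod_cast (prime_nth i).pos
  unfold rad; positivity

lemma rad_le_one (s : ℕ) (i : Fin n) : rad s i ≤ 1 := by
  have : (1 : ℝ) ≤ Nat.nth Nat.Prime i := by exact_mod_cast (prime_nth i).one_lt.le
  unfold rad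
  exact inv_le_one_of_one_le₀ (one_le_pow₀ this)

lemma toReal_wt (s : ℕ) (m : Fin n →₀ ℕ) : (wt s m).toReal = ∏ i, rad s i ^ m i := by
  unfold wt rad N
  rw [ENNReal.toReal_inv, ENNReal.toReal_pow, ENNReal.toReal_natCast, Nat.cast_prod,
    ← Finset.prod_pow, ← Finset.prod_inv_distrib]
  refine Finset.prod_congr rfl fun i _ => ?_
  rw [Nat.cast_pow, inv_pow, ← pow_mul, ← pow_mul, mul_comm]

lemma wt_eq_ofReal (s : ℕ) (m : Fin n →₀ ℕ) : wt s m = ENNReal.ofReal (∏ i, rad s i ^ m i) := by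
  rw [← toReal_wt, ENNReal.ofReal_toReal (wt_ne_top _ _)]

lemma summable_of_nrm {s : ℕ} {f : MvPowerSeries (Fin n) ℂ} (h : nrm s f ≠ ⊤) :
    Summable fun m => ‖coeff m f‖ * ∏ i, rad s i ^ m i := by
  have := ENNReal.summable_toReal h
  refine this.congr fun m => ?_
  rw [ENNReal.toReal_mul, toReal_wt, toReal_enorm]

lemma nrm_ne_top_of_summable {s : ℕ} {f : MvPowerSeries (Fin n) ℂ}
    (h : Summable fun m => ‖coeff m f‖ * ∏ i, rad s i ^ m i) : nrm s f ≠ ⊤ := by
  have h1 : nrm s f = ∑' m, ENNReal.ofReal (‖coeff m f‖ * ∏ i, rad s i ^ m i) := by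
    unfold nrm
    refine tsum_congr fun m => ?_
    rw [ENNReal.ofReal_mul (norm_nonneg _), ← wt_eq_ofReal, ofReal_norm]
  rw [h1]
  exact h.tsum_ofReal_ne_top

/-- the monomial function -/
noncomputable def mon (m : Fin n →₀ ℕ) (z : Fin n → ℂ) : ℂ := ∏ i, z i ^ m i

lemma mon_add (m m' : Fin n →₀ ℕ) (z : Fin n → ℂ) : mon (m + m') z = mon m z * mon m' z := by
  simp [mon, pow_add, Finset.prod_mul_distrib]

lemma mon_zero (z : Fin n → ℂ) : mon 0 z = 1 := by simp [mon]

/-- evaluation of a power series (as a possibly divergent `tsum`) -/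
noncomputable def ev (f : MvPowerSeries (Fin n) ℂ) (z : Fin n → ℂ) : ℂ := ∑' m, coeff m f * mon m z

/-- the closed polydisc -/
def pd (s : ℕ) : Set (Fin n → ℂ) := {z | ∀ i, ‖z i‖ ≤ rad s i}

lemma norm_mon_le {s : ℕ} {z : Fin n → ℂ} (hz : z ∈ pd s) (m : Fin n →₀ ℕ) :
    ‖mon m z‖ ≤ ∏ i, rad s i ^ m i := by
  unfold mon
  rw [norm_prod]
  refine Finset.prod_le_prod (fun _ _ => norm_nonneg _) fun i _ => ?_
  rw [norm_pow]
  exact pow_le_pow_left₀ (norm_nonneg _) (hz i) _

lemma summable_ev {s : ℕ} {f : MvPowerSeries (Fin n) ℂ} (h : nrm s f ≠ ⊤) {z : Fin n → ℂ}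
    (hz : z ∈ pd s) : Summable fun m => ‖coeff m f * mon m z‖ := by
  refine Summable.of_nonneg_of_le (fun _ => norm_nonneg _) (fun m => ?_) (summable_of_nrm h)
  rw [norm_mul]
  exact mul_le_mul_of_nonneg_left (norm_mon_le hz m) (norm_nonneg _)

lemma ev_add {s : ℕ} {f g : MvPowerSeries (Fin n) ℂ} (hf : nrm s f ≠ ⊤) (hg : nrm s g ≠ ⊤)
    {z : Fin n → ℂ} (hz : z ∈ pd s) : ev (f + g) z = ev f z + ev g z := by
  unfold ev
  rw [← (summable_ev hf hz).of_norm.tsum_add (summable_ev hg hz).of_norm]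
  refine tsum_congr fun m => ?_
  rw [map_add, add_mul]

lemma ev_mul {s : ℕ} {f g : MvPowerSeries (Fin n) ℂ} (hf : nrm s f ≠ ⊤) (hg : nrm s g ≠ ⊤)
    {z : Fin n → ℂ} (hz : z ∈ pd s) : ev (f * g) z = ev f z * ev g z := by
  classical
  unfold ev
  have h1 := summable_ev hf hz
  have h2 := summable_ev hg hz
  have h3 := summable_mul_of_summable_norm (f := fun m => coeff m f * mon m z)
    (g := fun m => coeff m g * mon m z) h1 h2
  rw [h1.of_norm.tsum_mul_tsum_eq_tsum_sum_antidiagonal h2.of_norm h3]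
  refine tsum_congr fun m => ?_
  rw [coeff_mul, Finset.sum_mul]
  refine Finset.sum_congr rfl fun p hp => ?_
  rw [Finset.mem_antidiagonal] at hp
  rw [← hp, mon_add]; ring

lemma ev_monomial (m : Fin n →₀ ℕ) (a : ℂ) (z : Fin n → ℂ) : ev (monomial m a) z = a * mon m z := by
  classical
  unfold ev
  rw [tsum_eq_single m]
  · rw [coeff_monomial_same]
  · intro m' hm'
    rw [coeff_monomial_ne hm', zero_mul]

lemma ev_algebraMap (a : ℂ) (z : Fin n → ℂ) :
    ev (algebraMap ℂ (MvPowerSeries (Fin n) ℂ) a) z = a := by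
  have : algebraMap ℂ (MvPowerSeries (Fin n) ℂ) a = monomial 0 a := by
    rw [MvPowerSeries.algebraMap_apply]; rfl
  rw [this, ev_monomial, mon_zero, mul_one]

lemma ev_one (z : Fin n → ℂ) : ev (1 : MvPowerSeries (Fin n) ℂ) z = 1 := by
  have := ev_algebraMap (n := n) 1 z
  rwa [map_one] at this

lemma ev_zero (z : Fin n → ℂ) : ev (0 : MvPowerSeries (Fin n) ℂ) z = 0 := by
  simp [ev]

lemma ev_X (i : Fin n) (z : Fin n → ℂ) : ev (X i : MvPowerSeries (Fin n) ℂ) z = z i := by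
  classical
  have : (X i : MvPowerSeries (Fin n) ℂ) = monomial (Finsupp.single i 1) 1 := rfl
  rw [this, ev_monomial, one_mul]
  unfold mon
  rw [Finset.prod_eq_single i]
  · simp
  · intro j _ hj
    rw [Finsupp.single_apply, if_neg (Ne.symm hj), pow_zero]
  · intro h; exact absurd (Finset.mem_univ i) h

/-- value at the centre -/
lemma ev_at_zero (f : MvPowerSeries (Fin n) ℂ) : ev f 0 = constantCoeff f := by
  unfold ev
  rw [tsum_eq_single 0]
  · rw [mon_zero, mul_one]; rfl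
  · intro m hm
    obtain ⟨i, hi⟩ : ∃ i, m i ≠ 0 := by
      by_contra hcon
      push Not at hcon
      exact hm (Finsupp.ext hcon)
    unfold mon
    rw [Finset.prod_eq_zero (Finset.mem_univ i) (by simp [hi]), mul_zero]

/-- the open half polydisc -/
def hd (s : ℕ) : Set (Fin n → ℂ) := {z | ∀ i, ‖z i‖ < rad s i / 2}

lemma hd_eq (s : ℕ) : hd (n := n) s = Set.univ.pi fun i => Metric.ball 0 (rad s i / 2) := by
  ext z; simp [hd]

lemma isOpen_hd (s : ℕ) : IsOpen (hd (n := n) s) := by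
  rw [hd_eq]
  exact isOpen_set_pi Set.finite_univ fun i _ => Metric.isOpen_ball

lemma isPreconnected_hd (s : ℕ) : IsPreconnected (hd (n := n) s) := by
  have : Convex ℝ (hd (n := n) s) := by
    rw [hd_eq]
    exact convex_pi fun i _ => convex_ball _ _
  exact this.isPreconnected

lemma zero_mem_hd (s : ℕ) : (0 : Fin n → ℂ) ∈ hd s := by
  intro i
  simpa using rad_pos s i

lemma hd_mem_nhds (s : ℕ) : hd (n := n) s ∈ nhds 0 := (isOpen_hd s).mem_nhds (zero_mem_hd s)

lemma hd_subset_pd (s : ℕ) : hd (n := n) s ⊆ pd s := fun _ hz i =>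
  (hz i).le.trans (half_le_self (rad_pos s i).le)

lemma pd_mem_nhds (s : ℕ) : pd (n := n) s ∈ nhds 0 :=
  Filter.mem_of_superset (hd_mem_nhds s) (hd_subset_pd s)

lemma pd_anti {s t : ℕ} (h : s ≤ t) : pd (n := n) t ⊆ pd s := by
  intro z hz i
  refine (hz i).trans ?_
  have : (1 : ℝ) ≤ Nat.nth Nat.Prime i := by exact_mod_cast (prime_nth i).one_lt.le
  unfold rad
  exact inv_anti₀ (by positivity) (pow_le_pow_right₀ this h)

/-- derivative of a monomial function -/
noncomputable def dmon (m : Fin n →₀ ℕ) (z : Fin n → ℂ) : (Fin n → ℂ) →L[ℂ] ℂ :=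
  ∑ i : Fin n, (∏ j ∈ Finset.univ.erase i, z j ^ m j) •
    (((m i : ℂ) * z i ^ (m i - 1)) • ContinuousLinearMap.proj (R := ℂ) (φ := fun _ : Fin n => ℂ) i)

lemma hasFDerivAt_mon (m : Fin n →₀ ℕ) (z : Fin n → ℂ) : HasFDerivAt (mon m) (dmon m z) z := by
  have h2 : ∀ i ∈ (Finset.univ : Finset (Fin n)), HasFDerivAt (fun w : Fin n → ℂ => w i ^ m i)
      (((m i : ℂ) * z i ^ (m i - 1)) •
        ContinuousLinearMap.proj (R := ℂ) (φ := fun _ : Fin n => ℂ) i) z := by
    intro i _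
    have h1 : HasFDerivAt (fun w : Fin n → ℂ => w i)
        (ContinuousLinearMap.proj (R := ℂ) (φ := fun _ : Fin n => ℂ) i) z :=
      hasFDerivAt_apply i z
    exact (hasDerivAt_pow (m i) (z i)).comp_hasFDerivAt z h1
  exact HasFDerivAt.finsetProd h2

lemma norm_dmon_le {s : ℕ} {z : Fin n → ℂ} (hz : z ∈ hd s) (m : Fin n →₀ ℕ) :
    ‖dmon m z‖ ≤ (∑ i : Fin n, 2 / rad s i) * ∏ i, rad s i ^ m i := by
  unfold dmon
  refine (norm_sum_le _ _).trans ?_
  rw [Finset.sum_mul]
  refine Finset.sum_le_sum fun i _ => ?_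
  rw [norm_smul, norm_smul, norm_mul, norm_prod]
  have hp : ‖ContinuousLinearMap.proj (R := ℂ) (φ := fun _ : Fin n => ℂ) i‖ ≤ 1 := by
    refine ContinuousLinearMap.opNorm_le_bound _ zero_le_one fun x => ?_
    rw [one_mul]; exact norm_le_pi_norm x i
  have h1 : ∏ j ∈ Finset.univ.erase i, ‖z j ^ m j‖ ≤ ∏ j ∈ Finset.univ.erase i, rad s j ^ m j := by
    refine Finset.prod_le_prod (fun _ _ => norm_nonneg _) fun j _ => ?_
    rw [norm_pow]
    exact pow_le_pow_left₀ (norm_nonneg _) (hd_subset_pd s hz j) _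
  have h2 : ‖(m i : ℂ)‖ * ‖z i ^ (m i - 1)‖ ≤ 2 / rad s i * rad s i ^ m i := by
    rw [Complex.norm_natCast, norm_pow]
    have hr := rad_pos s i
    rcases Nat.eq_zero_or_pos (m i) with h0 | h0
    · rw [h0]; simp; positivity
    · calc (m i : ℝ) * ‖z i‖ ^ (m i - 1) ≤ 2 ^ m i * (rad s i / 2) ^ (m i - 1) := by
            refine mul_le_mul ?_ ?_ (by positivity) (by positivity)
            · exact_mod_cast (Nat.lt_two_pow_self).le
            · exact pow_le_pow_left₀ (norm_nonneg _) (hz i).le _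
        _ = 2 / rad s i * rad s i ^ m i := by
            obtain ⟨k, hk⟩ : ∃ k, m i = k + 1 := ⟨m i - 1, by omega⟩
            rw [hk, Nat.add_sub_cancel, div_pow, pow_succ, pow_succ]
            field_simp
  have h3 : ∏ j, rad s j ^ m j = (∏ j ∈ Finset.univ.erase i, rad s j ^ m j) * rad s i ^ m i :=
    (Finset.prod_erase_mul _ _ (Finset.mem_univ i)).symm
  rw [h3]
  calc _ ≤ (∏ j ∈ Finset.univ.erase i, rad s j ^ m j) * ((2 / rad s i * rad s i ^ m i) * 1) := by
        refine mul_le_mul h1 (mul_le_mul h2 hp (norm_nonneg _) ?_) (by positivity) ?_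
        · have := rad_pos s i; positivity
        · exact Finset.prod_nonneg fun j _ => pow_nonneg (rad_pos s j).le _
    _ = _ := by ring

/-- Convergent power series are differentiable on the half polydisc. -/
theorem hasFDerivAt_ev {s : ℕ} {f : MvPowerSeries (Fin n) ℂ} (h : nrm s f ≠ ⊤) {z : Fin n → ℂ}
    (hz : z ∈ hd s) : HasFDerivAt (ev f) (∑' m, coeff m f • dmon m z) z := by
  have hu : Summable fun m => (∑ i : Fin n, 2 / rad s i) * (‖coeff m f‖ * ∏ i, rad s i ^ m i) :=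
    (summable_of_nrm h).mul_left _
  refine hasFDerivAt_tsum_of_isPreconnected (f := fun m z => coeff m f * mon m z)
    (f' := fun m z => coeff m f • dmon m z) hu (isOpen_hd s) (isPreconnected_hd s) ?_ ?_
    (zero_mem_hd s) (summable_ev h (hd_subset_pd s (zero_mem_hd s))).of_norm hz
  · intro m w _
    exact (hasFDerivAt_mon m w).const_mul _
  · intro m w hw
    rw [norm_smul]
    calc _ ≤ ‖coeff m f‖ * ((∑ i : Fin n, 2 / rad s i) * ∏ i, rad s i ^ m i) :=
          mul_le_mul_of_nonneg_left (norm_dmon_le hw m) (norm_nonneg _)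
      _ = _ := by ring

lemma differentiableOn_ev {s : ℕ} {f : MvPowerSeries (Fin n) ℂ} (h : nrm s f ≠ ⊤) :
    DifferentiableOn ℂ (ev f) (hd s) := fun _ hz =>
  (hasFDerivAt_ev h hz).differentiableAt.differentiableWithinAt

end Groth.Agent.Gaga.H9.Eval
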