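import Groth.Agent.Gaga.H9.Eval
import Mathlib.Analysis.SpecificLimits.Normed
import Mathlib.Data.Fin.Tuple.Basic

/-!
Multi-index geometric series.
-/

set_option autoImplicit false

open Groth.Agent.Gaga.H9.Eval

namespace Groth.Agent.Gaga.H9.Geom

/-- Multi-index geometric series over functions `Fin n → ℕ`. -/
lemma hasSum_pi (n : ℕ) (x : Fin n → ℂ) (hx : ∀ i, ‖x i‖ < 1) :
    HasSum (fun m : Fin n → ℕ => ∏ i, x i ^ m i) (∏ i, (1 - x i)⁻¹) ∧
      Summable (fun m : Fin n → ℕ => ‖∏ i, x i ^ m i‖) := by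
  induction n with
  | zero =>
    constructor
    · simp only [Finset.univ_eq_empty, Finset.prod_empty]
      exact hasSum_unique (fun _ : Fin 0 → ℕ => (1 : ℂ))
    · exact summable_of_hasFiniteSupport (Set.toFinite _)
  | succ n ih =>
    obtain ⟨h1, h2⟩ := ih (fun i => x i.succ) (fun i => hx _)
    have h3 : HasSum (fun k : ℕ => x 0 ^ k) (1 - x 0)⁻¹ := hasSum_geometric_of_norm_lt_one (hx 0)
    have h4 : Summable (fun k : ℕ => ‖x 0 ^ k‖) := by
      simp_rw [norm_pow]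
      exact summable_geometric_of_lt_one (norm_nonneg _) (hx 0)
    have h5 := summable_mul_of_summable_norm (f := fun k : ℕ => x 0 ^ k)
      (g := fun m : Fin n → ℕ => ∏ i : Fin n, x i.succ ^ m i) h4 h2
    have h6 := h3.mul h1 h5
    have h7 := h4.mul_norm h2
    set e : ℕ × (Fin n → ℕ) ≃ (Fin (n + 1) → ℕ) := Fin.consEquiv (fun _ => ℕ)
    have he : ∀ p : ℕ × (Fin n → ℕ), ∏ i, x i ^ (e p i) = x 0 ^ p.1 * ∏ i : Fin n, x i.succ ^ p.2 i := by
      intro p
      rw [Fin.prod_univ_succ]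
      rfl
    constructor
    · rw [← e.hasSum_iff, Fin.prod_univ_succ]
      have : ((fun m : Fin (n + 1) → ℕ => ∏ i, x i ^ m i) ∘ e) =
          fun p : ℕ × (Fin n → ℕ) => x 0 ^ p.1 * ∏ i : Fin n, x i.succ ^ p.2 i := funext he
      rw [this]
      exact h6
    · rw [← e.summable_iff]
      have : ((fun m : Fin (n + 1) → ℕ => ‖∏ i, x i ^ m i‖) ∘ e) =
          fun p : ℕ × (Fin n → ℕ) => ‖x 0 ^ p.1 * ∏ i : Fin n, x i.succ ^ p.2 i‖ :=
        funext fun p => congrArg norm (he p)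
      rw [this]
      exact h7

/-- Multi-index geometric series over `Fin n →₀ ℕ`. -/
lemma hasSum_mon {n : ℕ} (x : Fin n → ℂ) (hx : ∀ i, ‖x i‖ < 1) :
    HasSum (fun m : Fin n →₀ ℕ => mon m x) (∏ i, (1 - x i)⁻¹) := by
  have h := (hasSum_pi n x hx).1
  rw [← Finsupp.equivFunOnFinite.hasSum_iff] at h
  exact h

lemma summable_norm_mon {n : ℕ} (x : Fin n → ℂ) (hx : ∀ i, ‖x i‖ < 1) :
    Summable (fun m : Fin n →₀ ℕ => ‖mon m x‖) := by
  have h := (hasSum_pi n x hx).2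
  rw [← Finsupp.equivFunOnFinite.summable_iff] at h
  exact h

lemma summable_prod_pow {n : ℕ} (x : Fin n → ℝ) (h0 : ∀ i, 0 ≤ x i) (hx : ∀ i, x i < 1) :
    Summable (fun m : Fin n →₀ ℕ => ∏ i, x i ^ m i) := by
  have h := summable_norm_mon (fun i => (x i : ℂ)) (fun i => by
    rw [Complex.norm_real, Real.norm_of_nonneg (h0 i)]; exact hx i)
  refine h.congr fun m => ?_
  unfold mon
  rw [norm_prod]
  refine Finset.prod_congr rfl fun i _ => ?_
  rw [norm_pow, Complex.norm_real, Real.norm_of_nonneg (h0 i)]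

end Groth.Agent.Gaga.H9.Geom
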