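import Mathlib.RingTheory.MvPowerSeries.Basic
import Mathlib.Topology.Algebra.InfiniteSum.ENNReal
import Mathlib.Analysis.Complex.Basic
import Mathlib.NumberTheory.PrimeCounting
import Mathlib.Data.Nat.Factorization.Basic

/-!
Weights `N m = ∏ p_i ^ m_i` on exponents, weighted `ℓ¹` norms of power series in `n` variables over `ℂ`.
-/

set_option autoImplicit false

open scoped ENNReal
open MvPowerSeries

namespace Groth.Agent.Gaga.H9.Wt

variable {n : ℕ}

/-- The weight of an exponent: `∏ p_i ^ m_i`, `p_i` the `i`-th prime. -/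
noncomputable def N (m : Fin n →₀ ℕ) : ℕ := ∏ i : Fin n, (Nat.nth Nat.Prime i) ^ (m i)

lemma prime_nth (i : ℕ) : (Nat.nth Nat.Prime i).Prime := Nat.prime_nth_prime i

lemma N_pos (m : Fin n →₀ ℕ) : 0 < N m :=
  Finset.prod_pos fun i _ => pow_pos (prime_nth i).pos _

lemma N_zero : N (0 : Fin n →₀ ℕ) = 1 := by simp [N]

lemma N_add (m m' : Fin n →₀ ℕ) : N (m + m') = N m * N m' := by
  simp [N, pow_add, Finset.prod_mul_distrib]

lemma N_factorization (m : Fin n →₀ ℕ) (j : Fin n) :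
    (N m).factorization (Nat.nth Nat.Prime j) = m j := by
  unfold N
  rw [Nat.factorization_prod_apply (g := fun i : Fin n => (Nat.nth Nat.Prime i) ^ (m i))
    (fun i _ => pow_ne_zero _ (prime_nth i).ne_zero)]
  rw [Finset.sum_eq_single j]
  · rw [(prime_nth j).factorization_pow]; simp
  · intro i _ hij
    rw [(prime_nth i).factorization_pow, Finsupp.single_apply, if_neg]
    intro h
    exact hij (Fin.ext (Nat.nth_injective Nat.infinite_setOfPred_prime h))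
  · intro h; exact absurd (Finset.mem_univ j) h

lemma N_injective : Function.Injective (N : (Fin n →₀ ℕ) → ℕ) := by
  intro m m' h
  ext j
  rw [← N_factorization m j, ← N_factorization m' j, h]

lemma finite_le (M : ℕ) : {m : Fin n →₀ ℕ | N m ≤ M}.Finite :=
  Set.Finite.preimage (N_injective.injOn) (Set.finite_Iic M)

lemma N_le_add_left (m m' : Fin n →₀ ℕ) : N m ≤ N (m + m') := by
  rw [N_add]; exact Nat.le_mul_of_pos_right _ (N_pos m')

/-- weight factor `N(m)^{-s}` -/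
noncomputable def wt (s : ℕ) (m : Fin n →₀ ℕ) : ℝ≥0∞ := ((N m : ℝ≥0∞) ^ s)⁻¹

lemma N_ne_zero' (m : Fin n →₀ ℕ) : (N m : ℝ≥0∞) ≠ 0 := by
  simpa using (N_pos m).ne'

lemma wt_ne_zero (s : ℕ) (m : Fin n →₀ ℕ) : wt s m ≠ 0 := by
  simp [wt]

lemma wt_ne_top (s : ℕ) (m : Fin n →₀ ℕ) : wt s m ≠ ⊤ := by
  simp [wt, (N_pos m).ne']

lemma wt_zero (s : ℕ) : wt s (0 : Fin n →₀ ℕ) = 1 := by simp [wt, N_zero]

lemma wt_add (s : ℕ) (m m' : Fin n →₀ ℕ) : wt s (m + m') = wt s m * wt s m' := by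
  unfold wt
  rw [N_add, Nat.cast_mul, mul_pow, ENNReal.mul_inv]
  · left; simp [(N_pos m).ne']
  · left; exact ENNReal.pow_ne_top (ENNReal.natCast_ne_top _)

lemma wt_antitone {s s' : ℕ} (h : s ≤ s') (m : Fin n →₀ ℕ) : wt s' m ≤ wt s m := by
  unfold wt
  rw [ENNReal.inv_le_inv]
  exact pow_le_pow_right₀ (by exact_mod_cast (N_pos m)) h

lemma wt_add_exp (s t : ℕ) (m : Fin n →₀ ℕ) : wt (s + t) m = wt s m * wt t m := by
  unfold wt
  rw [pow_add, ENNReal.mul_inv]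
  · left; simp [(N_pos m).ne']
  · left; exact ENNReal.pow_ne_top (ENNReal.natCast_ne_top _)

lemma wt_le_one (s : ℕ) (m : Fin n →₀ ℕ) : wt s m ≤ 1 := by
  unfold wt
  rw [ENNReal.inv_le_one]
  exact one_le_pow₀ (by exact_mod_cast (N_pos m))

/-- The weighted `ℓ¹` norm of a power series. -/
noncomputable def nrm (s : ℕ) (f : MvPowerSeries (Fin n) ℂ) : ℝ≥0∞ :=
  ∑' m, ‖coeff m f‖ₑ * wt s m

lemma nrm_antitone {s s' : ℕ} (h : s ≤ s') (f : MvPowerSeries (Fin n) ℂ) : nrm s' f ≤ nrm s f :=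
  ENNReal.tsum_le_tsum fun m => mul_le_mul_right (wt_antitone h m) _

lemma nrm_zero (s : ℕ) : nrm s (0 : MvPowerSeries (Fin n) ℂ) = 0 := by
  simp [nrm]

lemma nrm_neg (s : ℕ) (f : MvPowerSeries (Fin n) ℂ) : nrm s (-f) = nrm s f := by
  simp [nrm]

lemma nrm_add (s : ℕ) (f g : MvPowerSeries (Fin n) ℂ) : nrm s (f + g) ≤ nrm s f + nrm s g := by
  unfold nrm
  rw [← ENNReal.tsum_add]
  refine ENNReal.tsum_le_tsum fun m => ?_
  rw [← add_mul, map_add]
  exact mul_le_mul_left (enorm_add_le _ _) _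

lemma nrm_sum {ι : Type*} (s : ℕ) (F : Finset ι) (f : ι → MvPowerSeries (Fin n) ℂ) :
    nrm s (∑ i ∈ F, f i) ≤ ∑ i ∈ F, nrm s (f i) := by
  classical
  induction F using Finset.induction_on with
  | empty => simp [nrm_zero]
  | insert a F ha ih =>
    rw [Finset.sum_insert ha, Finset.sum_insert ha]
    exact (nrm_add s _ _).trans (by gcongr)

lemma nrm_mul (s : ℕ) (f g : MvPowerSeries (Fin n) ℂ) : nrm s (f * g) ≤ nrm s f * nrm s g := by
  classical
  unfold nrm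
  have h1 : ∀ m : Fin n →₀ ℕ, ‖coeff m (f * g)‖ₑ * wt s m ≤
      ∑ p ∈ Finset.antidiagonal m, (‖coeff p.1 f‖ₑ * wt s p.1) * (‖coeff p.2 g‖ₑ * wt s p.2) := by
    intro m
    rw [coeff_mul]
    calc _ ≤ (∑ p ∈ Finset.antidiagonal m, ‖coeff p.1 f * coeff p.2 g‖ₑ) * wt s m := by
          gcongr; exact enorm_sum_le _ _
      _ = _ := by
          rw [Finset.sum_mul]
          refine Finset.sum_congr rfl fun p hp => ?_
          rw [Finset.mem_antidiagonal] at hp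
          rw [← hp, wt_add, enorm_mul]
          ring
  calc _ ≤ ∑' m, ∑ p ∈ Finset.antidiagonal m, (‖coeff p.1 f‖ₑ * wt s p.1) * (‖coeff p.2 g‖ₑ * wt s p.2) :=
        ENNReal.tsum_le_tsum h1
    _ = ∑' m, ∑' p : Finset.antidiagonal m, (‖coeff p.1.1 f‖ₑ * wt s p.1.1) * (‖coeff p.1.2 g‖ₑ * wt s p.1.2) := by
        refine tsum_congr fun m => ?_
        rw [tsum_fintype, Finset.sum_coe_sort (Finset.antidiagonal m)
          (fun p => (‖coeff p.1 f‖ₑ * wt s p.1) * (‖coeff p.2 g‖ₑ * wt s p.2))]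
    _ = ∑' x : (Σ m : Fin n →₀ ℕ, Finset.antidiagonal m),
          (‖coeff x.2.1.1 f‖ₑ * wt s x.2.1.1) * (‖coeff x.2.1.2 g‖ₑ * wt s x.2.1.2) := by
        rw [ENNReal.tsum_sigma']
    _ = ∑' x : (Fin n →₀ ℕ) × (Fin n →₀ ℕ), (‖coeff x.1 f‖ₑ * wt s x.1) * (‖coeff x.2 g‖ₑ * wt s x.2) := by
        exact Finset.HasAntidiagonal.sigmaAntidiagonalEquivProd.tsum_eq
          (fun x : (Fin n →₀ ℕ) × (Fin n →₀ ℕ) => (‖coeff x.1 f‖ₑ * wt s x.1) * (‖coeff x.2 g‖ₑ * wt s x.2))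
    _ = ∑' a, ∑' b, (‖coeff a f‖ₑ * wt s a) * (‖coeff b g‖ₑ * wt s b) := by
        rw [ENNReal.tsum_prod']
    _ = _ := by
        simp_rw [ENNReal.tsum_mul_left, ENNReal.tsum_mul_right]

lemma le_nrm (s : ℕ) (f : MvPowerSeries (Fin n) ℂ) (m : Fin n →₀ ℕ) :
    ‖coeff m f‖ₑ * wt s m ≤ nrm s f :=
  ENNReal.le_tsum m

lemma nrm_monomial (s : ℕ) (m : Fin n →₀ ℕ) (a : ℂ) : nrm s (monomial m a) = ‖a‖ₑ * wt s m := by
  classical
  unfold nrm
  rw [tsum_eq_single m]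
  · simp
  · intro m' hm'
    rw [coeff_monomial_ne hm']; simp

lemma nrm_one (s : ℕ) : nrm s (1 : MvPowerSeries (Fin n) ℂ) = 1 := by
  have : (1 : MvPowerSeries (Fin n) ℂ) = monomial 0 1 := rfl
  rw [this, nrm_monomial, wt_zero]; simp

end Groth.Agent.Gaga.H9.Wt
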